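import Cfsg.Agent.H9.C3Defs

/-!
# C3, piece LIN1: the four subgroups of order three
-/

set_option autoImplicit false
set_option linter.unusedSectionVars false

namespace Cfsg.Agent.H1.C3Lin1

open Subgroup Cfsg.Agent.H62 Cfsg.Agent.H9.C3

universe u

variable {G : Type u} [Group G] [Finite G]

theorem VV_inv (x : G) : VV x⁻¹ = VV x := by
  unfold VV
  congr 1
  ext g
  exact and_congr_right fun _ => Commute.inv_right_iff

theorem VV_map (g x : G) : (VV x).map (MulAut.conj g).toMonoidHom = VV (g * x * g⁻¹) := by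
  unfold VV
  rw [MonoidHom.map_closure]
  congr 1
  ext v
  constructor
  · rintro ⟨w, ⟨h1, h2⟩, rfl⟩
    simp only [MulEquiv.toMonoidHom_eq_coe, MonoidHom.coe_coe, MulAut.conj_apply, Set.mem_ofPred_eq,
      conj_mul, h1, h2, mul_one, mul_inv_cancel, and_self]
  · rintro ⟨h1, h2⟩
    refine ⟨g⁻¹ * v * g, ⟨?_, ?_⟩, by simp [mul_assoc]⟩
    · calc g⁻¹ * v * g * (g⁻¹ * v * g) = g⁻¹ * (v * v) * g := by group
        _ = 1 := by rw [h1]; group
    · calc g⁻¹ * v * g * x = g⁻¹ * (v * (g * x * g⁻¹)) * g := by group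
        _ = x * (g⁻¹ * v * g) := by rw [h2]; group

theorem mem_cj (g : G) (A : Subgroup G) (v : G) :
    v ∈ A ↔ g * v * g⁻¹ ∈ A.map (MulAut.conj g).toMonoidHom :=
  (mem_map_iff_mem (f := (MulAut.conj g).toMonoidHom) (MulAut.conj g).injective).symm

theorem nm_of_map {g : G} {A : Subgroup G} (h : A.map (MulAut.conj g).toMonoidHom = A) :
    g ∈ Nm A :=
  mem_normalizer_iff.2 fun v => by
    have := mem_cj g A v
    rwa [h] at this

theorem Pr_map (g e x : G) (I : Finset (Fin 4)) :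
    (Pr e x I).map (MulAut.conj g).toMonoidHom =
      ⨆ j ∈ I, (W e x j).map (MulAut.conj g).toMonoidHom := by
  unfold Pr
  simp only [Subgroup.map_iSup]

variable (k : Kit1 G) {P : Sylow 3 G} {e : G} (f : Fr (P : Subgroup G) e) {x : G}
  (hx : x ∈ (P : Subgroup G)) (x1 : x ≠ 1)

include k hx x1 in
theorem ord3 : orderOf x = 3 :=
  orderOf_eq_prime (k.cube P x hx) x1

include f hx in
theorem cj_mem : e * x * e⁻¹ ∈ (P : Subgroup G) := (mem_normalizer_iff.1 f.norm x).1 hx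

include f hx in
theorem cj_cj : e * (e * x * e⁻¹) * e⁻¹ = x⁻¹ := by
  rw [← f.inv x hx]; group

include k hx x1 in
theorem ne_inv : x ≠ x⁻¹ := by
  intro h
  have h1 := k.cube P x hx
  rw [pow_succ, sq] at h1
  nth_rewrite 1 [h] at h1
  exact x1 (by simpa using h1)

include k f hx x1

theorem not_zp : e * x * e⁻¹ ∉ zpowers x := by
  classical
  intro h
  have h3 := ord3 k hx x1
  have h4 := cj_cj f hx
  rw [mem_zpowers_iff_mem_range_orderOf, h3] at h
  obtain ⟨n, hn, e1⟩ := Finset.mem_image.1 h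
  have := Finset.mem_range.1 hn
  interval_cases n
  · exact x1 (by simpa using e1.symm)
  · rw [pow_one] at e1
    rw [← e1, ← e1] at h4
    exact ne_inv k hx x1 h4
  · have e2 : x ^ 2 = x⁻¹ := by
      rw [eq_inv_iff_mul_eq_one, ← pow_succ]; exact k.cube P x hx
    rw [e2] at e1
    rw [← e1, ← conj_inv, ← e1, inv_inv] at h4
    exact ne_inv k hx x1 h4

theorem indep {i j : ℤ} (h : x ^ i * (e * x * e⁻¹) ^ j = 1) : 3 ∣ i ∧ 3 ∣ j := by
  have hb := cj_mem f hx
  have b1 : e * x * e⁻¹ ≠ 1 := by simpa using x1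
  have h3 := ord3 k hx x1
  have hb3 := ord3 k hb b1
  have nz := not_zp k f hx x1
  generalize e * x * e⁻¹ = b at h hb b1 hb3 nz
  have h1 : b ^ j ∈ zpowers x := by
    rw [eq_inv_of_mul_eq_one_right h]
    exact inv_mem (zpow_mem (mem_zpowers x) i)
  have hj : 3 ∣ j := by
    by_contra hj
    apply nz
    have h2 : b ^ (j * j) = b ^ (1 : ℤ) := by
      rw [zpow_eq_zpow_iff_modEq, hb3]
      have : j % 3 = 1 ∨ j % 3 = 2 := by omega
      rcases this with h | h <;> simp [Int.ModEq, Int.mul_emod, h]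
    rw [zpow_one] at h2
    rw [← h2, zpow_mul]
    exact zpow_mem h1 j
  refine ⟨?_, hj⟩
  rw [(orderOf_dvd_iff_zpow_eq_one (x := b)).1 (by rw [hb3]; exact hj), mul_one] at h
  have := (orderOf_dvd_iff_zpow_eq_one (x := x)).2 h
  rwa [h3] at this

theorem span {z : G} (hz : z ∈ (P : Subgroup G)) :
    ∃ i j : ℤ, z = x ^ i * (e * x * e⁻¹) ^ j := by
  have hb := cj_mem f hx
  have h3 := ord3 k hx x1
  have nz := not_zp k f hx x1
  generalize e * x * e⁻¹ = b at hb nz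
  have c : Commute x b := k.comm P x hx b hb
  let T : Subgroup G :=
    { carrier := {z | ∃ i j : ℤ, z = x ^ i * b ^ j}
      one_mem' := ⟨0, 0, by simp⟩
      mul_mem' := by
        rintro _ _ ⟨i, j, rfl⟩ ⟨i', j', rfl⟩
        refine ⟨i + i', j + j', ?_⟩
        rw [zpow_add, zpow_add, (c.zpow_zpow i' j).mul_mul_mul_comm]
      inv_mem' := by
        rintro _ ⟨i, j, rfl⟩
        refine ⟨-i, -j, ?_⟩
        rw [mul_inv_rev, ← zpow_neg, ← zpow_neg, (c.zpow_zpow (-i) (-j)).eq] }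
  have h1 : T ≤ (P : Subgroup G) := by
    rintro _ ⟨i, j, rfl⟩
    exact mul_mem (zpow_mem hx i) (zpow_mem hb j)
  have h2 : zpowers x ≤ T := zpowers_le.2 ⟨1, 0, by simp⟩
  have h4 : b ∈ T := ⟨0, 1, by simp⟩
  have d1 := card_dvd_of_le h1
  have d2 := card_dvd_of_le h2
  rw [k.c9] at d1
  rw [Nat.card_zpowers, h3] at d2
  have h5 : Nat.card T ≠ 3 := fun h =>
    nz (eq_of_le_of_card_ge h2 (by rw [h, Nat.card_zpowers, h3]) ▸ h4)
  have h6 : Nat.card T = 9 := by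
    have := Nat.le_of_dvd (by norm_num) d1
    generalize Nat.card T = n at *
    interval_cases n <;> omega
  have h7 : T = (P : Subgroup G) := eq_of_le_of_card_ge h1 (by rw [h6, k.c9])
  rw [← h7] at hz
  exact hz

/-- The exponents of the generators. -/
theorem ln_eq (i : Fin 4) :
    ln e x i = x ^ (![1, 0, 1, -1] i : ℤ) * (e * x * e⁻¹) ^ (![0, 1, 1, 1] i : ℤ) := by
  have c : Commute x (e * x * e⁻¹) := k.comm P x hx _ (cj_mem f hx)
  fin_cases i
  · simp [ln]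
  · simp [ln]
  · simp [ln]
  · have : e * (x * (e * x * e⁻¹)) * e⁻¹ = x⁻¹ * (e * x * e⁻¹) := by
      rw [← conj_mul, cj_cj f hx, c.inv_left.eq]
    simpa [ln] using this

theorem ln_mem (i : Fin 4) : ln e x i ∈ (P : Subgroup G) := by
  rw [ln_eq k f hx x1]
  exact mul_mem (zpow_mem hx _) (zpow_mem (cj_mem f hx) _)

theorem ln_ne (i : Fin 4) : ln e x i ≠ 1 := by
  rw [ln_eq k f hx x1]
  intro h
  have := indep k f hx x1 h
  fin_cases i <;> simp at this

theorem ln_nz (i j : Fin 4) (h : i ≠ j) : ln e x j ∉ zpowers (ln e x i) := by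
  rintro ⟨n, hn⟩
  have c : Commute x (e * x * e⁻¹) := k.comm P x hx _ (cj_mem f hx)
  simp only [ln_eq k f hx x1] at hn
  rw [(c.zpow_zpow _ _).mul_zpow, ← zpow_mul, ← zpow_mul, ← mul_inv_eq_one, mul_inv_rev,
    ← zpow_neg, ← zpow_neg, ← (c.zpow_zpow _ _).eq, (c.zpow_zpow _ _).symm.mul_mul_mul_comm,
    ← zpow_add, ← zpow_add] at hn
  have := indep k f hx x1 hn
  fin_cases i <;> fin_cases j <;> simp at this h <;> omega

theorem cov {z : G} (hz : z ∈ (P : Subgroup G)) (z1 : z ≠ 1) :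
    ∃ i, z = ln e x i ∨ z = (ln e x i)⁻¹ := by
  obtain ⟨i, j, rfl⟩ := span k f hx x1 hz
  have hb := cj_mem f hx
  have h3 := ord3 k hx x1
  have hb3 := ord3 k hb (by simpa using x1)
  have c : Commute x (e * x * e⁻¹) := k.comm P x hx _ hb
  have key : ∀ i' j' : ℤ, i % 3 = i' % 3 → j % 3 = j' % 3 →
      x ^ i * (e * x * e⁻¹) ^ j = x ^ i' * (e * x * e⁻¹) ^ j' := by
    intro i' j' h h'
    rw [(zpow_eq_zpow_iff_modEq (x := x) (m := i) (n := i')).2 (by rw [h3]; exact h),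
      (zpow_eq_zpow_iff_modEq (x := e * x * e⁻¹) (m := j) (n := j')).2 (by rw [hb3]; exact h')]
  have inv : ∀ n : Fin 4, (ln e x n)⁻¹ =
      x ^ (-(![1, 0, 1, -1] n : ℤ)) * (e * x * e⁻¹) ^ (-(![0, 1, 1, 1] n : ℤ)) := by
    intro n
    rw [ln_eq k f hx x1, mul_inv_rev, ← zpow_neg, ← zpow_neg, (c.zpow_zpow _ _).eq]
  have hi : i % 3 = 0 ∨ i % 3 = 1 ∨ i % 3 = 2 := by omega
  have hj : j % 3 = 0 ∨ j % 3 = 1 ∨ j % 3 = 2 := by omega
  rcases hi with hi | hi | hi <;> rcases hj with hj | hj | hj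
  · exact absurd ((key 0 0 hi hj).trans (by simp)) z1
  · exact ⟨1, Or.inl (by rw [ln_eq k f hx x1]; exact key _ _ hi hj)⟩
  · exact ⟨1, Or.inr (by rw [inv]; exact key _ _ hi hj)⟩
  · exact ⟨0, Or.inl (by rw [ln_eq k f hx x1]; exact key _ _ hi hj)⟩
  · exact ⟨2, Or.inl (by rw [ln_eq k f hx x1]; exact key _ _ hi hj)⟩
  · exact ⟨3, Or.inr (by rw [inv]; exact key _ _ hi hj)⟩
  · exact ⟨0, Or.inr (by rw [inv]; exact key _ _ hi hj)⟩
  · exact ⟨3, Or.inl (by rw [ln_eq k f hx x1]; exact key _ _ hi hj)⟩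
  · exact ⟨2, Or.inr (by rw [inv]; exact key _ _ hi hj)⟩

theorem sq4 : e * e * (e * e) = 1 := by
  have h1 : e * e * (e * e) ∈ (P : Subgroup G) := by
    refine k.sr P _ (mul_mem (mul_mem f.norm f.norm) (mul_mem f.norm f.norm)) x hx x1 ?_
    have h2 := f.inv _ (inv_mem hx)
    rw [inv_inv] at h2
    calc e * e * (e * e) * x = e * e * (e * e * x * (e * e)⁻¹) * (e * e)⁻¹ * (e * e * (e * e)) := by
          group
      _ = x * (e * e * (e * e)) := by rw [f.inv x hx, h2]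
  by_contra h
  apply ne_inv k h1 h
  rw [← f.inv _ h1]
  simp only [mul_assoc, mul_inv_rev, mul_inv_cancel_left, mul_inv_cancel, mul_one]

theorem W_map (i : Fin 4) : (W e x i).map (MulAut.conj e).toMonoidHom = W e x (sg i) := by
  unfold W
  rw [VV_map]
  fin_cases i
  · rfl
  · exact (congrArg VV (cj_cj f hx)).trans (VV_inv x)
  · rfl
  · exact (congrArg VV (cj_cj f (ln_mem k f hx x1 2))).trans (VV_inv _)

theorem W_mapP {p : G} (hp : p ∈ (P : Subgroup G)) (i : Fin 4) :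
    (W e x i).map (MulAut.conj p).toMonoidHom = W e x i := by
  unfold W
  rw [VV_map, k.comm P p hp _ (ln_mem k f hx x1 i), mul_inv_cancel_right]

theorem irr (i : Fin 4) (K : Subgroup G) (hK : (P : Subgroup G) ≤ Nm K) (h : K ⊓ W e x i ≠ ⊥) :
    W e x i ≤ K := by
  have o := fun j => ord3 k (ln_mem k f hx x1 j) (ln_ne k f hx x1 j)
  have c4 : Nat.card (W e x i) = 4 := (k.card _ (o i)).resolve_left fun h' =>
    h (by rw [show W e x i = ⊥ from h', inf_bot_eq])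
  obtain ⟨⟨v, hv⟩, v1⟩ := ne_bot_iff_exists_ne_one.1 h
  have v1' : v ≠ 1 := fun h => v1 (Subtype.ext h)
  obtain ⟨j, hj⟩ := exists_ne i
  have hy := ln_mem k f hx x1 j
  have hw : ln e x j * v * (ln e x j)⁻¹ ∈ K ⊓ W e x i :=
    ⟨(mem_normalizer_iff.1 (hK hy) v).1 hv.1,
      (mem_normalizer_iff.1 (nm_of_map (W_mapP k f hx x1 hy i)) v).1 hv.2⟩
  have w1 : ln e x j * v * (ln e x j)⁻¹ ≠ v := fun h' => v1' (k.fpf _ _ (o i) (o j)
    (k.comm P _ (ln_mem k f hx x1 i) _ hy) (ln_nz k f hx x1 i j hj.symm) v hv.2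
    (mul_inv_eq_iff_eq_mul.1 h').symm)
  have w2 : ln e x j * v * (ln e x j)⁻¹ ≠ 1 := by simpa using v1'
  have h3 : 2 < Nat.card (K ⊓ W e x i : Subgroup G) := by
    have := Fintype.ofFinite (K ⊓ W e x i : Subgroup G)
    rw [Nat.card_eq_fintype_card, Fintype.two_lt_card_iff]
    exact ⟨1, ⟨v, hv⟩, ⟨_, hw⟩, v1.symm, fun h => w2 (congrArg Subtype.val h).symm,
      fun h => w1 (congrArg Subtype.val h).symm⟩
  have d := card_dvd_of_le (inf_le_right : K ⊓ W e x i ≤ W e x i)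
  rw [c4] at d
  have h4 : Nat.card (K ⊓ W e x i : Subgroup G) = 4 := by
    have := Nat.le_of_dvd (by norm_num) d
    generalize Nat.card (K ⊓ W e x i : Subgroup G) = n at *
    interval_cases n <;> omega
  exact inf_eq_right.1 (eq_of_le_of_card_ge inf_le_right (by rw [h4, c4]))

theorem gen (hg : Gen G) (K : Subgroup G) (h2 : IsPGroup 2 K) (hK : (P : Subgroup G) ≤ Nm K) :
    ∃ I : Finset (Fin 4), (∀ j, j ∈ I ↔ W e x j ≠ ⊥ ∧ W e x j ≤ K) ∧ K = Pr e x I := by
  classical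
  refine ⟨Finset.univ.filter fun j => W e x j ≠ ⊥ ∧ W e x j ≤ K, fun j => by simp, ?_⟩
  refine le_antisymm ((hg P K hK h2).trans (iSup₂_le ?_))
    (iSup₂_le fun j hj => (Finset.mem_filter.1 hj).2.2)
  rintro z ⟨h1, z1, h3⟩
  obtain ⟨i, hi⟩ := cov k f hx x1 h1 z1
  have e1 : VV z = W e x i := by
    rcases hi with rfl | rfl
    · rfl
    · exact VV_inv _
  rw [e1] at h3 ⊢
  by_cases h0 : W e x i = ⊥
  · rw [h0]; exact bot_le
  · exact le_iSup₂_of_le i (Finset.mem_filter.2 ⟨Finset.mem_univ i, h0, h3⟩) le_rfl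

omit k f hx x1 in
/-- **C3-LIN1** -/
theorem lin1 : Lin1Stmt.{u} := by
  intro G _ _ K P e f x hx x1
  have k := K.toKit1
  refine ⟨ln_mem k f hx x1, fun j => ord3 k (ln_mem k f hx x1 j) (ln_ne k f hx x1 j),
    fun z => cov k f hx x1, ln_nz k f hx x1, sq4 k f hx x1, fun i v => ?_, fun I v => ?_,
    fun i p hp => nm_of_map (W_mapP k f hx x1 hp i), fun I p hp => nm_of_map ?_,
    irr k f hx x1, gen k f hx x1 K.gen⟩
  · rw [← W_map k f hx x1]
    exact mem_cj e _ v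
  · rw [mem_cj e, Pr_map]
    simp only [W_map k f hx x1]
    unfold Pr
    rw [Finset.iSup_finset_image]
  · rw [Pr_map]
    simp only [W_mapP k f hx x1 hp]
    rfl

end Cfsg.Agent.H1.C3Lin1
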