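import Cfsg.Agent.H11.ElDefs

set_option autoImplicit false
open Subgroup

namespace Cfsg.Agent.H1.ElN3b

open Cfsg.Agent.H11.EL

universe u

theorem n3b (b : Base.{u}) (hCK : CKStmt.{u}) (hW : WStmt.{u}) (hWK : WKStmt.{u})
    (hPQ : PQStmt.{u}) (hZK : ZKStmt.{u}) (hAB : ABStmt.{u}) (hNU : NUStmt.{u})
    (hN : N3nStmt.{u}) : N3bStmt.{u} := by
  intro G _ _ D A B k h hk
  have nb : NB D := h.ne.toNT.toNB
  have lp : LP A B := nb.lp A h.hA B h.hB h.AB
  have la : LA (A ⊔ B) := b.la _ lp.iso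
  have mix : ∀ k1, Mixed D A B k1 → orderOf k1 = 11 ∧
      ∀ c ∈ Ct (A ⊔ B), Commute c k1 → c ∈ zpowers k1 := by
    rintro k1 ⟨h1, h2, B', hB', hn, hm⟩
    have := nb.mix A h.hA B h.hB B' hB' h.AB.symm hn k1 h1 h2 hm
    exact ⟨this.1, this.2.2⟩
  have key : ∀ k1, Mixed D A B k1 → Ct (A ⊔ B) ≠ zpowers k1 := by
    intro k1 h1 he
    refine (hCK D A B h.toPr).1 h.e1 ?_
    rw [he, Nat.card_zpowers, (mix k1 h1).1]; simp
  have KA : Ct (A ⊔ B) ≤ Ct A := centralizer_le (SetLike.coe_subset_coe.2 le_sup_left)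
  have CN : Ct A ≤ Nm A := centralizer_le_normalizer _
  have AK : ∀ a ∈ A, a ∈ Ct (A ⊔ B) → a = 1 := fun a ha hc =>
    la.ctr a (mem_sup_left ha) hc
  obtain ⟨W, l, ws⟩ := hW D A B h
  obtain ⟨wk1, -, wk3⟩ := hWK D A B W l h.toPr ws
  have KW : Ct (A ⊔ B) ≤ Nm W := KA.trans (CN.trans ws.nm)
  have bot : W ⊓ Ct (A ⊔ B) = ⊥ := by
    by_contra hne
    obtain ⟨⟨k1, h1, h2⟩, h3⟩ := ne_bot_iff_exists_ne_one.1 hne
    have h3' : k1 ≠ 1 := fun e => h3 (Subtype.ext e)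
    have m1 := wk1 k1 h1 h2 h3'
    have sub : ∀ c ∈ W, c ∈ Ct (A ⊔ B) → c ∈ zpowers k1 := by
      intro c hc hc'
      refine (mix k1 m1).2 c hc' ?_
      have := AK _ (ws.ab c hc k1 h1)
        (mul_mem (mul_mem (mul_mem hc' h2) (inv_mem hc')) (inv_mem h2))
      rw [mul_inv_eq_one, mul_inv_eq_iff_eq_mul] at this
      exact this
    have zW : zpowers k1 ≤ W := (zpowers_le).2 h1
    have zK : zpowers k1 ≤ Ct (A ⊔ B) := (zpowers_le).2 h2
    have cj' : ∀ n ∈ Ct (A ⊔ B), ∀ x ∈ zpowers k1, n * x * n⁻¹ ∈ zpowers k1 := by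
      intro n hn x hx
      exact sub _ ((mem_normalizer_iff.1 (KW hn) x).1 (zW hx))
        (mul_mem (mul_mem hn (zK hx)) (inv_mem hn))
    refine key k1 m1 (le_antisymm (fun n hn => hN D A B k1 h m1 n hn ?_) zK)
    refine mem_normalizer_iff.2 fun x => ⟨cj' n hn x, fun hx => ?_⟩
    have := cj' n⁻¹ (inv_mem hn) _ hx
    simpa [mul_assoc] using this
  have w3 := wk3 bot
  obtain ⟨ok, ck⟩ := mix k hk
  by_cases hl : l = 11
  · subst hl
    obtain ⟨f, s, lc⟩ := b.lc1 A B lp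
    have fk : Commute f k := (mem_centralizer_iff.1 hk.1 f lc.fL)
    have ab := hAB A W k f lp.cA ws (KA hk.1) (by rw [← ok, pow_orderOf_eq_one]) lc.fA
      (by rw [← lc.fo, pow_orderOf_eq_one]) lc.big fk (w3 k hk.1 hk.2.1)
    exact hNU A W _ k lp.cA ws ab KA hk.1 ok (hN D A B k h hk) (key k hk)
      (fun c hc h1 _ => w3 c hc h1) (w3 k hk.1 hk.2.1)
  · have fpf : Fpf (Ct (A ⊔ B)) A W := by
      intro g hg g1 w hw ha
      set a := g * w * g⁻¹ * w⁻¹ with hadef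
      have aw : Commute a w := mem_centralizer_iff.1 (ws.ct hw) a ha
      have e1 : g * w * g⁻¹ = a * w := by rw [hadef]; group
      have e2 : g * w ^ l * g⁻¹ = a ^ l * w ^ l := by
        rw [← conj_pow, e1, aw.mul_pow]
      have e3 : g * w ^ l * g⁻¹ = w ^ l := by
        have := mem_centralizer_iff.1 (KA hg) _ (ws.el w hw)
        rw [← this]; group
      have e4 : a ^ l = 1 := by
        rw [e3] at e2
        exact mul_eq_right.1 e2.symm
      have e5 : a ^ 11 = 1 := by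
        have := pow_card_eq_one' (x := (⟨a, ha⟩ : A))
        rw [lp.cA] at this
        exact congrArg Subtype.val this
      have cop : Nat.Coprime l 11 :=
        (Nat.coprime_primes ws.pr (by norm_num)).2 hl
      have e6 : a = 1 := by
        have : a ^ Nat.gcd l 11 = 1 := pow_gcd_eq_one.2 ⟨e4, e5⟩
        rwa [cop, pow_one] at this
      refine w3 g hg g1 w hw ?_
      rw [e6, one_mul, mul_inv_eq_iff_eq_mul] at e1
      exact e1.symm
    have pq := hPQ _ A W ws.le ws.ne (ws.ct.trans CN) (KA.trans CN) KW ws.ab fpf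
    have Kne : Ct (A ⊔ B) ≠ ⊥ := fun e => hk.2.1 (by have := hk.1; rwa [e, mem_bot] at this)
    obtain ⟨r, R, hr, rp, -, -, -, -, cen⟩ := hZK _ h.odd Kne pq
    have : Fact r.Prime := ⟨rp⟩
    obtain ⟨c, hc⟩ := exists_prime_orderOf_dvd_card' (G := Ct (A ⊔ B)) r (hr ▸ Nat.minFac_dvd _)
    have hc' : orderOf (c : G) = r := by rw [orderOf_coe, hc]
    have cz : (c : G) ∈ zpowers k := ck c c.2 (cen c c.2 hc' k hk.1).symm
    have r11 : r = 11 := by
      have := orderOf_dvd_of_mem_zpowers cz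
      rw [hc', ok] at this
      exact (Nat.prime_dvd_prime_iff_eq rp (by norm_num)).1 this
    refine key k hk (le_antisymm (fun n hn => ck n hn (cen k hk.1 (ok.trans r11.symm) n hn)) ?_)
    exact (zpowers_le).2 hk.1

end Cfsg.Agent.H1.ElN3b
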