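import Cfsg.Agent.H5.Frobenius

/-! Frobenius quotients. -/

namespace Cfsg.Agent.H1

open Cfsg

variable {G : Type*} [Group G]

theorem isComplement'_map_mk' {K H C : Subgroup G} [C.Normal] (hc : K.IsComplement' H)
    (hCK : C ≤ K) :
    (K.map (QuotientGroup.mk' C)).IsComplement' (H.map (QuotientGroup.mk' C)) := by
  apply Subgroup.isComplement'_of_disjoint_and_mul_eq_univ
  · rw [Subgroup.disjoint_def]
    rintro _ ⟨k, hk, rfl⟩ ⟨r, hr, e⟩
    have h1 : r⁻¹ * k ∈ C := QuotientGroup.eq.mp e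
    have h2 : r ∈ K := by
      have := K.mul_mem hk (K.inv_mem (hCK h1))
      simpa using this
    rw [← e, Subgroup.disjoint_def.mp hc.disjoint h2 hr, map_one]
  · rw [Set.eq_univ_iff_forall]
    intro y
    obtain ⟨g, rfl⟩ := QuotientGroup.mk'_surjective C y
    obtain ⟨⟨k, r⟩, e⟩ := hc.2 g
    refine ⟨_, ⟨k, k.2, rfl⟩, _, ⟨r, r.2, rfl⟩, ?_⟩
    rw [← e]; simp

theorem nonempty_equiv_map_mk' {H C : Subgroup G} [C.Normal] (h : Disjoint C H) :
    Nonempty (H ≃* H.map (QuotientGroup.mk' C)) := by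
  refine ⟨MulEquiv.ofBijective ((QuotientGroup.mk' C).subgroupMap H) ⟨?_,
    MonoidHom.subgroupMap_surjective _ _⟩⟩
  rw [injective_iff_map_eq_one]
  intro a ha
  have h1 : QuotientGroup.mk' C a = 1 := congrArg Subtype.val ha
  exact Subtype.ext (Subgroup.disjoint_def.mp h ((QuotientGroup.eq_one_iff _).mp h1) a.2)

/-- If `G = K ⋊ H`, `C < K` is normal and the non-identity elements of `H` act without fixed points
on `K/C`, then `G/C` is a Frobenius group with kernel `K/C` and complement `HC/C`. -/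
theorem frob_map_mk' [Finite G] {K H C : Subgroup G} [hKn : K.Normal] [C.Normal]
    (hc : K.IsComplement' H) (hCK : C ≤ K) (hne : ¬ K ≤ C) (hH : H ≠ ⊥)
    (hf : ∀ h ∈ H, h ≠ 1 → ∀ k ∈ K, h * k * h⁻¹ * k⁻¹ ∈ C → k ∈ C) :
    IsFrobeniusComplement (H.map (QuotientGroup.mk' C)) ∧
      frobeniusKernel (H.map (QuotientGroup.mk' C)) = K.map (QuotientGroup.mk' C) := by
  have hKn' : (K.map (QuotientGroup.mk' C)).Normal := hKn.map _ (QuotientGroup.mk'_surjective C)
  have hc' := isComplement'_map_mk' hc hCK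
  have hKb' : K.map (QuotientGroup.mk' C) ≠ ⊥ := by
    rwa [Ne, Subgroup.map_eq_bot_iff, QuotientGroup.ker_mk']
  have hRb' : H.map (QuotientGroup.mk' C) ≠ ⊥ := by
    rw [Ne, Subgroup.map_eq_bot_iff, QuotientGroup.ker_mk']
    intro h
    apply hH
    rw [eq_bot_iff]
    intro r hr
    exact Subgroup.disjoint_def.mp hc.disjoint (hCK (h hr)) hr
  have hF : IsFrobeniusComplement (H.map (QuotientGroup.mk' C)) := by
    rw [H5.frob_iff_fpf _ _ hc' hKb' hRb']
    rintro _ ⟨h, hh, rfl⟩ h1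
    have h1' : h ≠ 1 := by rintro rfl; exact h1 (map_one _)
    rw [eq_bot_iff]
    rintro _ ⟨⟨k, hk, rfl⟩, hkc⟩
    replace hkc := Subgroup.mem_centralizer_singleton_iff.mp hkc
    have h2 : h * k * h⁻¹ * k⁻¹ ∈ C := by
      apply (QuotientGroup.eq_one_iff _).mp
      change QuotientGroup.mk' C _ = 1
      simp only [map_mul, map_inv]
      rw [← hkc]; group
    exact Subgroup.mem_bot.mpr ((QuotientGroup.eq_one_iff _).mpr (hf h hh h1' k hk h2))
  exact ⟨hF, (H5.coe_eq_frobeniusKernel_of_isComplement' hc' hF).symm⟩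

end Cfsg.Agent.H1
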