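import Mathlib
import Cfsg.Agent.H42.FvDefs

/-!
An additive function on the roots, vanishing on a small symmetric set, on which an element of the
Weyl group acts as multiplication by `3` modulo an integer prime to `3`.
-/

set_option autoImplicit false

namespace Cfsg.Agent.H1.FvLatt

open Equiv Cfsg.Lie H37 H40 H34 H29 Module H50.E83 Finset

section

variable {ι Φ : Type} [Fintype ι] [DecidableEq ι] [Fintype Φ] (R : RS ι Φ)

theorem ex0 (Ψ : Set Φ) (hneg : ∀ r ∈ Ψ, R.neg r ∈ Ψ)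
    (hc : ({r | R.Pos r} ∩ Ψ).ncard < Fintype.card ι) :
    ∃ f : Φ → ℤ, IsAdd R f ∧ (∀ r ∈ Ψ, f r = 0) ∧ ∃ r, f r ≠ 0 := by
  classical
  let L : (ι → ℤ) →ₗ[ℤ] (↥({r | R.Pos r} ∩ Ψ) → ℤ) :=
    { toFun := fun m r => ∑ j, R.rc r.1 j * m j
      map_add' := fun a b => by
        funext r; simp [mul_add, sum_add_distrib]
      map_smul' := fun c a => by
        funext r; simp [mul_sum, mul_left_comm] }
  have hL : ¬ Function.Injective L := by
    intro h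
    have := LinearMap.finrank_le_finrank_of_injective h
    rw [Module.finrank_pi, Module.finrank_pi, ← Nat.card_eq_fintype_card (α := ↥({r | R.Pos r} ∩ Ψ)),
      Nat.card_coe_set_eq] at this
    omega
  rw [injective_iff_map_eq_zero] at hL
  push Not at hL
  obtain ⟨m, hm, hm0⟩ := hL
  have hp : ∀ r ∈ Ψ, R.Pos r → ∑ j, R.rc r j * m j = 0 := fun r hr h =>
    congrFun hm ⟨r, h, hr⟩
  refine ⟨fun r => ∑ j, R.rc r j * m j, isAdd_of m fun r => rfl, fun r hr => ?_, ?_⟩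
  · by_cases h : R.Pos r
    · exact hp r hr h
    · have := hp _ (hneg r hr) ((R.pos_neg_iff r).2 h)
      simp only [R.rc_neg, Pi.neg_apply, neg_mul, sum_neg_distrib, neg_eq_zero] at this
      exact this
  · by_contra h
    push Not at h
    apply hm0
    funext j
    simpa [R.rc_simple, Pi.single_apply] using h (R.simple j)

omit [Fintype Φ] in
theorem exF {π : Perm Φ} (hπ : π ∈ R.W) {Ψ : Set Φ} (hΨ : ∀ r ∈ Ψ, π r ∈ Ψ) {f : Φ → ℤ}
    (hf : IsAdd R f) (h0 : ∀ r ∈ Ψ, f r = 0) (k : ℕ) :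
    ∃ F : Φ → ℤ, IsAdd R F ∧ (∀ r ∈ Ψ, F r = 0) ∧
      ∀ r, 3 * F r - F (π r) = 3 ^ k * f r - f ((π ^ k) r) := by
  have hk : ∀ k : ℕ, ∀ r ∈ Ψ, (π ^ k) r ∈ Ψ := by
    intro k
    induction k with
    | zero => intro r hr; exact hr
    | succ k ih => intro r hr; rw [pow_succ, Perm.mul_apply]; exact ih _ (hΨ r hr)
  induction k with
  | zero => exact ⟨fun _ => 0, fun r => by simp, fun _ _ => rfl, fun r => by simp⟩
  | succ k ih =>
    obtain ⟨F, h1, h2, h3⟩ := ih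
    refine ⟨fun r => f ((π ^ k) r) + 3 * F r, (hf.comp (R.W.pow_mem hπ k)).add (h1.mul 3),
      fun r hr => by simp [h0 _ (hk k r hr), h2 r hr], fun r => ?_⟩
    rw [pow_succ π, Perm.mul_apply, pow_succ]
    linear_combination 3 * h3 r

theorem gen {π : Perm Φ} (hπ : π ∈ R.W) (Ψ : Set Φ) (hneg : ∀ r ∈ Ψ, R.neg r ∈ Ψ)
    (hΨ : ∀ r ∈ Ψ, π r ∈ Ψ) (hc : ({r | R.Pos r} ∩ Ψ).ncard < Fintype.card ι) :
    ∃ (s : ℕ) (f : Φ → ℤ), s.Coprime 3 ∧ IsAdd R f ∧ (∀ r ∈ Ψ, f r = 0) ∧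
      (∀ r, (f (π r) : ZMod s) = 3 * f r) ∧ ¬ ∀ r, (f r : ZMod s) = 0 := by
  classical
  have hex : ∃ n : ℕ, ∃ f : Φ → ℤ, (IsAdd R f ∧ (∀ r ∈ Ψ, f r = 0) ∧ ∃ r, f r ≠ 0) ∧
      ∑ r, (f r).natAbs = n := by
    obtain ⟨f, hf⟩ := ex0 R Ψ hneg hc
    exact ⟨_, f, hf, rfl⟩
  obtain ⟨f0, ⟨ha, h0, r0, hr0⟩, hn⟩ := Nat.find_spec hex
  have hmin : ∀ f : Φ → ℤ, IsAdd R f → (∀ r ∈ Ψ, f r = 0) → (∃ r, f r ≠ 0) →
      ∑ r, (f0 r).natAbs ≤ ∑ r, (f r).natAbs := fun f h1 h2 h3 => by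
    rw [hn]; exact Nat.find_min' hex ⟨f, ⟨h1, h2, h3⟩, rfl⟩
  obtain ⟨F, h1, h2, h3⟩ := exF R hπ hΨ ha h0 (orderOf π)
  rw [pow_orderOf_eq_one] at h3
  obtain ⟨m, hm⟩ : ∃ m, orderOf π = m + 1 := Nat.exists_eq_succ_of_ne_zero (orderOf_pos π).ne'
  obtain ⟨s, hs⟩ : ∃ s : ℕ, 3 ^ orderOf π = s + 1 :=
    Nat.exists_eq_succ_of_ne_zero (pow_ne_zero _ (by norm_num))
  have hs' : (3 : ℤ) ^ orderOf π = s + 1 := by exact_mod_cast hs
  have h4 : ∀ r, 3 * F r - F (π r) = s * f0 r := fun r => by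
    rw [h3 r, hs', Perm.one_apply]; ring
  have hs0 : s ≠ 0 := by
    rintro rfl
    rw [hm, pow_succ] at hs
    omega
  refine ⟨s, F, ?_, h1, h2, fun r => ?_, fun h => ?_⟩
  · rw [Nat.coprime_comm, Nat.Prime.coprime_iff_not_dvd Nat.prime_three]
    rw [hm, pow_succ] at hs
    omega
  · have := congrArg (Int.cast : ℤ → ZMod s) (h4 r)
    push_cast at this
    rw [ZMod.natCast_self, zero_mul, sub_eq_zero] at this
    exact this.symm
  · have hd : ∀ r, ∃ c, F r = s * c := fun r => (ZMod.intCast_zmod_eq_zero_iff_dvd _ _).1 (h r)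
    choose f hf using hd
    have hsz : (s : ℤ) ≠ 0 := by exact_mod_cast hs0
    have h5 : ∀ r, f0 r = 3 * f r - f (π r) := fun r => by
      apply mul_left_cancel₀ hsz
      rw [← h4 r, hf r, hf (π r)]; ring
    have hfa : IsAdd R f := fun r => by
      apply mul_left_cancel₀ hsz
      rw [← hf r, h1 r, mul_sum]
      exact sum_congr rfl fun j _ => by rw [hf]; ring
    have hf0 : ∀ r ∈ Ψ, f r = 0 := fun r hr => by
      have := hf r
      rw [h2 r hr] at this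
      exact (mul_eq_zero.1 this.symm).resolve_left hsz
    have hfn : ∃ r, f r ≠ 0 := by
      by_contra hh
      push Not at hh
      exact hr0 (by rw [h5, hh, hh]; simp)
    have h6 := hmin f hfa hf0 hfn
    have h7 : ∑ r, 3 * (f r).natAbs ≤ ∑ r, ((f0 r).natAbs + (f (π r)).natAbs) :=
      sum_le_sum fun r _ => by have := h5 r; omega
    rw [← mul_sum, sum_add_distrib, Equiv.sum_comp π fun r => (f r).natAbs] at h7
    have h8 : 0 < ∑ r, (f0 r).natAbs :=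
      lt_of_lt_of_le (Int.natAbs_pos.2 hr0)
        (single_le_sum (f := fun r => (f0 r).natAbs) (fun _ _ => Nat.zero_le _) (mem_univ r0))
    omega

end

theorem latt : H42.Fv.LattStmt := by
  intro π hπ Ψ h1 h2 h3
  refine gen C8.R hπ Ψ h1 h2 (lt_of_le_of_lt h3 ?_)
  rw [Fintype.card_fin]
  decide

end Cfsg.Agent.H1.FvLatt
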