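import Cfsg.Agent.H45.GdDefs

/-! Project CY, chapter IV, `GoodStmt`: construction of the quotient system (piece Q0). -/

set_option autoImplicit false

namespace Cfsg.Agent.H1.GdQ0

open Subgroup MulAction Cfsg.Agent.H11.Cy Cfsg.Agent.H45.Iv Cfsg.Agent.H45.Gd

theorem exO2 (L : Type) [Group L] [Finite L] : ∃ (N : Subgroup L) (_ : N.Normal), IsPGroup 2 N ∧
    ∀ M : Subgroup (L ⧸ N), M.Normal → IsPGroup 2 M → M = ⊥ := by
  obtain ⟨N, ⟨hN, h2⟩, hmax⟩ := (Set.toFinite {N : Subgroup L | N.Normal ∧ IsPGroup 2 N}).exists_maximal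
    ⟨⊥, inferInstance, IsPGroup.of_bot⟩
  refine ⟨N, hN, h2, fun M hM hM2 => ?_⟩
  have h1 : IsPGroup 2 (M.comap (QuotientGroup.mk' N)) :=
    hM2.comap_of_ker_isPGroup _ (by rwa [QuotientGroup.ker_mk'])
  have hle : N ≤ M.comap (QuotientGroup.mk' N) := QuotientGroup.le_comap_mk' N M
  have := hmax ⟨hM.comap _, h1⟩ hle
  rw [eq_bot_iff]
  intro m hm
  obtain ⟨g, rfl⟩ := QuotientGroup.mk'_surjective N m
  exact (QuotientGroup.eq_one_iff g).2 (this hm)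

theorem q0 : Q0Stmt := by
  classical
  intro G _ _ Ω _ _ p A h k P hs ⟨x0, hx0⟩
  obtain ⟨N, hN, h2, ho⟩ := exO2 (Ms A P)
  let π : Ms A P →* Ms A P ⧸ N := QuotientGroup.mk' N
  have hπ : Function.Surjective π := QuotientGroup.mk'_surjective N
  let im : Ω → Subgroup (Ms A P ⧸ N) := fun x => ((A x).subgroupOf (Ms A P)).map π
  have mem_im : ∀ x (u : Ms A P ⧸ N), u ∈ im x ↔ ∃ a : Ms A P, (a : G) ∈ A x ∧ π a = u :=
    fun x u => Iff.rfl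
  let Θ : Type := {B : Subgroup (Ms A P ⧸ N) // ∃ x ∈ P, B = im x}
  have cl : ∀ (g : Ms A P ⧸ N) (B : Θ), ∃ x ∈ P,
      B.1.comap (MulAut.conj g⁻¹).toMonoidHom = im x := by
    rintro g ⟨B, x, hx, rfl⟩
    obtain ⟨m, rfl⟩ := hπ g
    refine ⟨(m : G) • x, k.inv P hs m m.2 x hx, ?_⟩
    ext u
    rw [mem_comap, mem_im, mem_im]
    constructor
    · rintro ⟨a, ha, e⟩
      refine ⟨m * a * m⁻¹, h.eqv m x a ha, ?_⟩
      rw [map_mul, map_mul, map_inv, e]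
      simp [mul_assoc]
    · rintro ⟨a, ha, e⟩
      refine ⟨m⁻¹ * a * m, ?_, ?_⟩
      · have := h.eqv (m : G)⁻¹ _ a ha
        rwa [inv_smul_smul, inv_inv] at this
      · rw [map_mul, map_mul, map_inv, e]
        simp
  let act : MulAction (Ms A P ⧸ N) Θ :=
    { smul := fun g B => ⟨B.1.comap (MulAut.conj g⁻¹).toMonoidHom, cl g B⟩
      one_smul := fun B => Subtype.ext (by
        ext u
        change (1 : Ms A P ⧸ N)⁻¹ * u * (1 : Ms A P ⧸ N)⁻¹⁻¹ ∈ B.1 ↔ u ∈ B.1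
        simp)
      mul_smul := fun g g' B => Subtype.ext (by
        ext u
        change (g * g')⁻¹ * u * (g * g')⁻¹⁻¹ ∈ B.1 ↔ g'⁻¹ * (g⁻¹ * u * g⁻¹⁻¹) * g'⁻¹⁻¹ ∈ B.1
        simp [mul_assoc]) }
  let ρ : Ω → Θ := fun x => if hx : x ∈ P then ⟨im x, x, hx, rfl⟩ else ⟨im x0, x0, hx0, rfl⟩
  have hρ : ∀ x ∈ P, (ρ x).1 = im x := fun x hx => by simp only [ρ, dif_pos hx]
  refine ⟨Ms A P ⧸ N, inferInstance, inferInstance, Θ, inferInstance, act, fun B => B.1, π, ρ,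
    hπ, by rwa [QuotientGroup.ker_mk'], ho, ?_, ?_, Subtype.val_injective, ?_⟩
  · rintro ⟨B, x, hx, rfl⟩
    exact ⟨x, hx, Subtype.ext (hρ x hx)⟩
  · intro x hx u
    rw [hρ x hx, mem_im]
  · intro g w u
    change g⁻¹ * u * g⁻¹⁻¹ ∈ w.1 ↔ _
    rw [inv_inv]

end Cfsg.Agent.H1.GdQ0
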