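import Cfsg.Agent.H45.GdDefs

/-! Project CY, chapter IV, `GoodStmt`: images of lines in the quotient system (piece Q1). -/

set_option autoImplicit false

namespace Cfsg.Agent.H1.GdQ1

open Subgroup MulAction Cfsg.Agent.H11.Cy Cfsg.Agent.H45.Iv Cfsg.Agent.H45.Gd
open scoped commutatorElement

theorem one_of {H : Type} [Group H] {p : ℕ} (pp : p.Prime) (p2 : p ≠ 2) {u : H} {n : ℕ}
    (h1 : u ^ p = 1) (h2 : u ^ 2 ^ n = 1) : u = 1 := by
  have c : Nat.Coprime p (2 ^ n) := ((Nat.coprime_primes pp Nat.prime_two).2 p2).pow_right n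
  exact orderOf_eq_one_iff.1 (Nat.eq_one_of_dvd_coprimes c (orderOf_dvd_of_pow_eq_one h1)
    (orderOf_dvd_of_pow_eq_one h2))

theorem gen {G : Type} [Group G] [Finite G] {p : ℕ} (pp : p.Prime) {X : Subgroup G}
    (hX : Nat.card X = p) {b : G} (hb : b ∈ X) (b1 : b ≠ 1) : X = zpowers b := by
  have h1 : orderOf b ∣ p := hX ▸ X.orderOf_dvd_natCard hb
  have h2 : orderOf b = p := ((Nat.dvd_prime pp).1 h1).resolve_left (by simpa using b1)
  exact (eq_of_le_of_card_ge (zpowers_le.2 hb) (by rw [Nat.card_zpowers, h2, hX])).symm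

theorem q1 : Q1Stmt := by
  intro G _ _ Ω _ _ H _ _ Θ _ _ p A P B π ρ h p2 ep k ls hs pj
  have aM : ∀ x ∈ P, A x ≤ Ms A P := fun x hx => le_iSup₂_of_le x hx le_rfl
  have fM : ∀ x ∈ P, ∀ y ∈ P, Fl A x y ≤ Ms A P := fun x hx y hy => sup_le (aM x hx) (aM y hy)
  have rF : ∀ x y, Rl A x y ≤ Fl A x y := fun x y => commutator_le.2 fun a ha b hb => by
    rw [commutatorElement_def]
    exact mul_mem (mul_mem (mul_mem ha hb) (inv_mem ha)) (inv_mem hb)
  have hB : ∀ x ∈ P, B (ρ x) = ((A x).subgroupOf (Ms A P)).map π := fun x hx =>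
    Subgroup.ext fun u => pj.hB x hx u
  have ap : ∀ x, ∀ a ∈ A x, a ^ p = 1 := fun x a ha =>
    orderOf_dvd_iff_pow_eq_one.1 (h.card x ▸ (A x).orderOf_dvd_natCard ha)
  have pa : ∀ x (a : Ms A P), (a : G) ∈ A x → π a = 1 → (a : G) = 1 := by
    intro x a ha e
    obtain ⟨n, hn⟩ := pj.ker2 ⟨a, e⟩
    refine one_of h.pp p2 (ap x a ha) (n := n) ?_
    have := congrArg (fun t : π.ker => ((t : Ms A P) : G)) hn
    simpa using this
  have eqv : ∀ (g : Ms A P), ∀ x ∈ P, ρ ((g : G) • x) = π g • ρ x := by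
    intro g x hx
    apply pj.inj
    ext u
    rw [pj.act, pj.hB _ (k.inv P hs g g.2 x hx), pj.hB x hx]
    constructor
    · rintro ⟨a, ha, e⟩
      refine ⟨g⁻¹ * a * g, ?_, by rw [map_mul, map_mul, map_inv, e]⟩
      have := h.eqv (g : G)⁻¹ _ a ha
      rwa [inv_smul_smul, inv_inv] at this
    · rintro ⟨a, ha, e⟩
      refine ⟨g * a * g⁻¹, h.eqv g x a ha, ?_⟩
      rw [map_mul, map_mul, map_inv, e]
      group
  have flE : ∀ x ∈ P, ∀ y ∈ P, Fl B (ρ x) (ρ y) = ((Fl A x y).subgroupOf (Ms A P)).map π := by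
    intro x hx y hy
    rw [Fl, Fl, hB x hx, hB y hy, subgroupOf_sup (aM x hx) (aM y hy), Subgroup.map_sup]
  have rl : ∀ x ∈ P, ∀ y ∈ P, ∀ u : H,
      u ∈ Rl B (ρ x) (ρ y) ↔ ∃ g : Ms A P, (g : G) ∈ Rl A x y ∧ π g = u := by
    intro x hx y hy u
    have e : ⁅(Fl A x y).subgroupOf (Ms A P), (Fl A x y).subgroupOf (Ms A P)⁆ =
        (Rl A x y).subgroupOf (Ms A P) := by
      apply map_injective (Ms A P).subtype_injective
      rw [map_commutator, subgroupOf_map_subtype, subgroupOf_map_subtype,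
        inf_of_le_left (fM x hx y hy), inf_of_le_left ((rF x y).trans (fM x hx y hy))]
      rfl
    rw [Rl, flE x hx y hy, ← map_commutator, e]
    rfl
  have zfix : ∀ x y, x ≠ y → ∀ z ∈ Zl A x y, ∀ c ∈ Ln A x y, z • c = c :=
    fun x y e z hz => (ep.kfix x y e z).1 hz.2
  have alin : ∀ x y, ∀ a ∈ A x, a • y ∈ Ln A x y := by
    intro x y a ha b hb
    have := h.eqv a⁻¹ _ b hb
    rw [inv_smul_smul] at this
    have e' : b = a * (a⁻¹ * b * a⁻¹⁻¹) * a⁻¹ := by group
    rw [e']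
    exact mul_mem (mul_mem (mem_sup_left ha) (mem_sup_right this)) (inv_mem (mem_sup_left ha))
  have key : ∀ x ∈ P, ∀ y ∈ P, ρ x ≠ ρ y → ∀ r ∈ Rl A x y, ρ (r • x) = ρ x → r ∈ Zl A x y := by
    intro x hx y hy ne
    have hxy : x ≠ y := fun e => ne (e ▸ rfl)
    obtain ⟨la, -, lc, -⟩ := ls x y hxy
    have rM := (rF x y).trans (fM x hx y hy)
    let W : Subgroup G :=
      { carrier := {r | r ∈ Rl A x y ∧ ρ (r • x) = ρ x}
        one_mem' := ⟨one_mem _, by rw [one_smul]⟩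
        mul_mem' := by
          rintro r s ⟨hr, e1⟩ ⟨hs', e2⟩
          refine ⟨mul_mem hr hs', ?_⟩
          rw [mul_smul]
          have a1 := eqv ⟨r, rM hr⟩ _ (k.inv P hs s (rM hs') x hx)
          have a2 := eqv ⟨r, rM hr⟩ x hx
          rw [e2, ← a2] at a1
          exact a1.trans e1
        inv_mem' := by
          rintro r ⟨hr, e1⟩
          refine ⟨inv_mem hr, ?_⟩
          have a1 := eqv ⟨r⁻¹, inv_mem (rM hr)⟩ _ (k.inv P hs r (rM hr) x hx)
          have a2 := eqv ⟨r⁻¹, inv_mem (rM hr)⟩ x hx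
          rw [e1, ← a2] at a1
          simp only [inv_smul_smul] at a1
          exact a1.symm }
    have hW := lc.irr W (fun z hz => ⟨la.zle hz, by rw [zfix x y hxy z hz x (k.ln x y).1]⟩)
      (fun r hr => hr.1) (by
        rintro a ha r ⟨hr, e⟩
        have ax : a • x = x := h.fix x a ha
        have ax' : a⁻¹ • x = x := h.fix x _ (inv_mem ha)
        have cj := (k.cj a x y r).2.1 hr
        have hl : a • y ∈ Ln A x y := alin x y a ha
        have ne' : x ≠ a • y := fun e => hxy (by rw [← ax', e, inv_smul_smul])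
        rw [ax, (k.sp x y hxy x (k.ln x y).1 _ hl ne').1] at cj
        refine ⟨cj, ?_⟩
        rw [mul_smul, mul_smul, ax']
        have a1 := eqv ⟨a, aM x hx ha⟩ _ (k.inv P hs r (rM hr) x hx)
        have a2 := eqv ⟨a, aM x hx ha⟩ x hx
        rw [e, ← a2] at a1
        simp only [ax] at a1
        exact a1)
    rcases hW with e | e
    · intro r hr e1
      rw [← e]
      exact ⟨hr, e1⟩
    · obtain ⟨r, hr, e1⟩ := la.tr y (k.ln x y).2
      rw [← e] at hr
      exact absurd (e1 ▸ hr.2).symm ne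
  have lninj : ∀ x ∈ P, ∀ y ∈ P, ρ x ≠ ρ y → ∀ c ∈ Ln A x y, ∀ c' ∈ Ln A x y, ρ c = ρ c' → c = c' := by
    intro x hx y hy ne c hc c' hc' e
    have hxy : x ≠ y := fun e => ne (e ▸ rfl)
    obtain ⟨la, -⟩ := ls x y hxy
    have rM := (rF x y).trans (fM x hx y hy)
    obtain ⟨r, hr, rfl⟩ := la.tr c hc
    obtain ⟨s, hs', rfl⟩ := la.tr c' hc'
    have h1 : r⁻¹ * s ∈ Zl A x y := by
      refine key x hx y hy ne _ (mul_mem (inv_mem hr) hs') ?_
      have a1 := eqv ⟨r⁻¹, inv_mem (rM hr)⟩ _ (k.inv P hs s (rM hs') x hx)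
      have a2 := eqv ⟨r⁻¹, inv_mem (rM hr)⟩ _ (k.inv P hs r (rM hr) x hx)
      rw [← e, ← a2] at a1
      simp only [inv_smul_smul] at a1
      rw [mul_smul]
      exact a1
    have h2 := zfix x y hxy _ h1 x (k.ln x y).1
    rw [mul_smul, inv_smul_eq_iff] at h2
    exact h2.symm
  refine ⟨eqv, fun x hx y hy u => by rw [flE x hx y hy]; rfl, rl, ?_, ?_, ?_, lninj, ?_⟩
  · intro x hx y hy ne g hg e
    have hxy : x ≠ y := fun e => ne (e ▸ rfl)
    obtain ⟨la, -⟩ := ls x y hxy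
    refine key x hx y hy ne g ?_ (by rw [eqv g x hx, e, one_smul])
    by_contra hr
    obtain ⟨c, -, -, n, h1, h2⟩ := la.out g hg hr
    exact h2 (pa c (g ^ n) h1 (by rw [map_pow, e, one_pow]))
  · intro x hx y hy ne u
    have hxy : x ≠ y := fun e => ne (e ▸ rfl)
    obtain ⟨la, -⟩ := ls x y hxy
    constructor
    · rintro ⟨h1, h2⟩
      rw [flE x hx y hy] at h1
      obtain ⟨g, hg, rfl⟩ := h1
      have fx : ∀ w, B w ≤ Fl B (ρ x) (ρ y) → π g • w = w := by
        intro w hw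
        apply pj.inj
        ext v
        rw [pj.act]
        constructor
        · intro hv
          have := mem_centralizer_iff.1 h2 _ (hw hv)
          have e : v = (π g)⁻¹ * v * π g := by
            calc v = π g * ((π g)⁻¹ * v * π g) * (π g)⁻¹ := by group
              _ = _ := by rw [← this]; group
          rwa [e]
        · intro hv
          have := mem_centralizer_iff.1 h2 _ (hw hv)
          rwa [mul_assoc, this, inv_mul_cancel_left]
      obtain ⟨r, hr, a, ha, e⟩ := la.dec g hg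
      have hz : r ∈ Zl A x y := by
        refine key x hx y hy ne r hr ?_
        have := eqv g x hx
        rwa [fx _ le_sup_left, e, mul_smul, h.fix x a ha] at this
      have hl : a • y ∈ Ln A x y := alin x y a ha
      have h3 := eqv g y hy
      rw [fx _ le_sup_right, e, mul_smul, zfix x y hxy r hz _ hl] at h3
      have h4 := lninj x hx y hy ne _ hl y (k.ln x y).2 h3
      rcases h.semi x y a ha h4 with e1 | e1
      · refine ⟨g, ?_, rfl⟩
        rw [e, e1, mul_one]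
        exact hz
      · exact absurd e1.symm hxy
    · rintro ⟨g, hg, rfl⟩
      rw [Zl, Kl, flE x hx y hy]
      refine ⟨⟨g, hg.1, rfl⟩, mem_centralizer_iff.2 ?_⟩
      rintro _ ⟨f, hf, rfl⟩
      rw [← map_mul, ← map_mul]
      exact congrArg π (Subtype.ext (mem_centralizer_iff.1 hg.2 f hf))
  · intro x hx y hy ne w
    have hxy : x ≠ y := fun e => ne (e ▸ rfl)
    obtain ⟨la, -⟩ := ls x y hxy
    constructor
    · intro hw
      obtain ⟨c0, hc0, rfl⟩ := pj.rsurj w
      have : Nontrivial (A c0) := Finite.one_lt_card_iff_nontrivial.1 (by rw [h.card]; exact h.pp.one_lt)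
      obtain ⟨⟨a, ha⟩, a1⟩ := exists_ne (1 : A c0)
      have a1' : a ≠ 1 := fun e => a1 (Subtype.ext e)
      let a' : Ms A P := ⟨a, aM c0 hc0 ha⟩
      have h1 : π a' ∈ Fl B (ρ x) (ρ y) := hw ((pj.hB c0 hc0 _).2 ⟨a', ha, rfl⟩)
      rw [flE x hx y hy] at h1
      obtain ⟨g, hg, e⟩ := h1
      have hr : (g : G) ∉ Rl A x y := by
        intro hr
        obtain ⟨n, hn⟩ := la.r2 ⟨g, hr⟩
        have h2 : g ^ 2 ^ n = 1 := Subtype.ext (by simpa using congrArg Subtype.val hn)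
        have h3 : a' ^ p = 1 := Subtype.ext (ap c0 a ha)
        exact a1' (pa c0 a' ha (one_of h.pp p2 (n := n) (by rw [← map_pow, h3, map_one])
          (by rw [← e, ← map_pow, h2, map_one])))
      obtain ⟨c, hc, -, n, h1, h2⟩ := la.out g hg hr
      have cP : c ∈ P := hs x hx y hy hxy hc
      have h3 : π (g ^ n) = π (a' ^ n) := by rw [map_pow, map_pow, e]
      have h4 : a ^ n ≠ 1 := by
        intro e1
        have : a' ^ n = 1 := Subtype.ext e1
        exact h2 (pa c (g ^ n) h1 (by rw [h3, this, map_one]))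
      refine ⟨c, hc, pj.inj ?_⟩
      ext v
      rw [pj.hB c cP, pj.hB c0 hc0, gen h.pp (h.card c) h1 h2, gen h.pp (h.card c0) (pow_mem ha n) h4]
      constructor
      · rintro ⟨b, ⟨i, hi⟩, rfl⟩
        refine ⟨(a' ^ n) ^ i, ⟨i, rfl⟩, ?_⟩
        have : b = (g ^ n) ^ i := Subtype.ext hi.symm
        rw [this, map_zpow, map_zpow, h3]
      · rintro ⟨b, ⟨i, hi⟩, rfl⟩
        refine ⟨(g ^ n) ^ i, ⟨i, rfl⟩, ?_⟩
        have : b = (a' ^ n) ^ i := Subtype.ext hi.symm
        rw [this, map_zpow, map_zpow, h3]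
    · rintro ⟨c, hc, rfl⟩ v hv
      obtain ⟨a, ha, rfl⟩ := (pj.hB c (hs x hx y hy hxy hc) v).1 hv
      rw [flE x hx y hy]
      exact ⟨a, hc ha, rfl⟩
  · intro x hx y hy _ e g hg
    have h1 : π g ∈ Rl B (ρ x) (ρ y) := (rl x hx y hy _).2 ⟨g, hg, rfl⟩
    have h2 : Rl B (ρ x) (ρ y) = ⊥ := by
      rw [Rl, Fl, ← e, sup_idem, commutator_eq_bot_iff_le_centralizer]
      intro u hu
      rw [mem_centralizer_iff]
      intro v hv
      obtain ⟨a, ha, rfl⟩ := (pj.hB x hx u).1 hu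
      obtain ⟨b, hb, rfl⟩ := (pj.hB x hx v).1 hv
      rw [← map_mul, ← map_mul]
      refine congrArg π (Subtype.ext ?_)
      by_cases a1 : (a : G) = 1
      · simp [a1]
      · rw [gen h.pp (h.card x) ha a1] at hb
        obtain ⟨i, hi⟩ := hb
        change (b : G) * a = a * b
        rw [← hi]
        exact (Commute.zpow_self _ i).eq
    rwa [h2, mem_bot] at h1

end Cfsg.Agent.H1.GdQ1
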