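import Cfsg.Agent.H76.K0Defs

set_option autoImplicit false

namespace Cfsg.Agent.H1.K0Ar

open Finset

theorem fin (m b c k l : ℤ) (hm : 2 ≤ m) (h1 : b ^ 2 + c ^ 2 = 2 * m)
    (h2 : (2 * b + (2 * m + 1) * k) ^ 2 + (2 * c + (2 * m + 1) * l) ^ 2 = 4 * m - 2) : False := by
  have h3 : (2 * m + 1) * ((2 * m + 1) * (k ^ 2 + l ^ 2) + 4 * (b * k + c * l) + 2) = 0 := by
    linear_combination h2 - 4 * h1
  have h4 := (mul_eq_zero.1 h3).resolve_left (by omega)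
  have hT2 : (b * k + c * l) ^ 2 ≤ 2 * m * (k ^ 2 + l ^ 2) := by
    rw [← h1]; nlinarith [sq_nonneg (b * l - c * k)]
  have hN0 : 0 ≤ k ^ 2 + l ^ 2 := by positivity
  generalize k ^ 2 + l ^ 2 = N at *
  generalize b * k + c * l = T at *
  have hN2 : 2 ≤ N := by
    by_contra h
    have : N = 0 ∨ N = 1 := by omega
    rcases this with rfl | rfl <;> omega
  have h5 : ((2 * m + 1) * N + 2) ^ 2 = 16 * T ^ 2 := by
    have : (2 * m + 1) * N + 2 = -4 * T := by linarith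
    rw [this]; ring
  have h6 : 0 < (2 * m + 1) ^ 2 * N - 24 * m + 4 := by
    have : (2 * m + 1) ^ 2 * 2 ≤ (2 * m + 1) ^ 2 * N := by gcongr
    nlinarith
  nlinarith [mul_pos (by omega : 0 < N) h6]

theorem s1 (n : ℕ) : 2 * ∑ i ∈ range n, (i : ℤ) = n * (n - 1) := by
  induction n with
  | zero => simp
  | succ n ih => rw [sum_range_succ]; push_cast; linear_combination ih

theorem s2 (n : ℕ) : 6 * ∑ i ∈ range n, (i : ℤ) ^ 2 = n * (n - 1) * (2 * n - 1) := by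
  induction n with
  | zero => simp
  | succ n ih => rw [sum_range_succ]; push_cast; linear_combination ih

theorem conv (p : ℕ) [NeZero p] (F : ℕ → ℤ) :
    ∑ x : ZMod p, F x.val = ∑ i ∈ range p, F i :=
  sum_nbij' (fun x => x.val) (fun i => (i : ZMod p)) (fun x _ => mem_range.2 (ZMod.val_lt x))
    (fun _ _ => mem_univ _) (fun x _ => ZMod.natCast_zmod_val x)
    (fun _ hi => ZMod.val_cast_of_lt (mem_range.1 hi)) (fun _ _ => rfl)

theorem key (m : ℕ) : ∑ x : ZMod (2 * m + 1), (((2 * m + 1 : ℕ) : ℤ) * x.val - (x.val : ℤ) ^ 2) =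
    2 * ∑ x : ZMod (2 * m + 1), x.valMinAbs ^ 2 := by
  have e1 := conv (2 * m + 1) (fun i => ((2 * m + 1 : ℕ) : ℤ) * i - (i : ℤ) ^ 2)
  have e2 := conv (2 * m + 1)
    (fun i => (if i ≤ (2 * m + 1) / 2 then (i : ℤ) else i - ((2 * m + 1 : ℕ) : ℤ)) ^ 2)
  simp only [← ZMod.valMinAbs_def_pos] at e2
  rw [e1, e2, sum_sub_distrib, ← mul_sum]
  have e3 : ∑ i ∈ range (2 * m + 1),
      (if i ≤ (2 * m + 1) / 2 then (i : ℤ) else i - ((2 * m + 1 : ℕ) : ℤ)) ^ 2 =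
      ∑ i ∈ range (m + 1), (i : ℤ) ^ 2 + ∑ i ∈ range m, ((i : ℤ) ^ 2 - 2 * m * i + m ^ 2) := by
    rw [show range (2 * m + 1) = range (m + 1 + m) by congr 1; ring, sum_range_add]
    congr 1
    · exact sum_congr rfl fun i hi => by rw [if_pos (by have := mem_range.1 hi; omega)]
    · exact sum_congr rfl fun i _ => by rw [if_neg (by omega)]; push_cast; ring
  rw [e3, sum_add_distrib, sum_sub_distrib, ← mul_sum, sum_const, card_range, nsmul_eq_mul]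
  have a1 := s1 (2 * m + 1)
  have a2 := s2 (2 * m + 1)
  have a3 := s2 (m + 1)
  have a4 := s2 m
  have a5 := s1 m
  push_cast at *
  apply mul_left_cancel₀ (by norm_num : (6 : ℤ) ≠ 0)
  linear_combination (3 * (2 * (m : ℤ) + 1)) * a1 - a2 - 2 * a3 - 2 * a4 + 12 * (m : ℤ) * a5

theorem ar : H76.K0.ArStmt := by
  intro p hp hp2 d e hd he h
  obtain ⟨m, rfl⟩ := hp.odd_of_ne_two hp2
  have : Fact (2 * m + 1).Prime := ⟨hp⟩
  by_contra hne
  have hm : 2 ≤ m := by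
    have := hp.two_le
    omega
  have hd' : (d : ZMod (2 * m + 1)) ≠ 0 := fun h0 => hd ((ZMod.intCast_zmod_eq_zero_iff_dvd _ _).1 h0)
  have he' : (e : ZMod (2 * m + 1)) ≠ 0 := fun h0 => he ((ZMod.intCast_zmod_eq_zero_iff_dvd _ _).1 h0)
  have dv : ∀ (x : ZMod (2 * m + 1)) (t : ℤ),
      ((2 * m + 1 : ℕ) : ℤ) ∣ (x * t).valMinAbs - (x.val : ℤ) * t := fun x t => by
    rw [← ZMod.intCast_zmod_eq_zero_iff_dvd]
    push_cast
    simp
  have le : ∀ x : ZMod (2 * m + 1), ((2 * m + 1 : ℕ) : ℤ) * x.val - (x.val : ℤ) ^ 2 ≤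
      (x * d).valMinAbs ^ 2 + (x * e).valMinAbs ^ 2 := fun x => by
    have := h x.val _ _ (dv x d) (dv x e)
    linarith
  have eq : ∑ x : ZMod (2 * m + 1), (((2 * m + 1 : ℕ) : ℤ) * x.val - (x.val : ℤ) ^ 2) =
      ∑ x : ZMod (2 * m + 1), ((x * d).valMinAbs ^ 2 + (x * e).valMinAbs ^ 2) := by
    rw [key, sum_add_distrib, two_mul]
    congr 1
    · exact (Equiv.sum_comp (Equiv.mulRight₀ _ hd') (fun x : ZMod (2 * m + 1) => x.valMinAbs ^ 2)).symm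
    · exact (Equiv.sum_comp (Equiv.mulRight₀ _ he') (fun x : ZMod (2 * m + 1) => x.valMinAbs ^ 2)).symm
  have all := (sum_eq_sum_iff_of_le fun x _ => le x).1 eq
  have v1 : ((1 : ℕ) : ZMod (2 * m + 1)).val = 1 := ZMod.val_cast_of_lt (by omega)
  have v2 : ((2 : ℕ) : ZMod (2 * m + 1)).val = 2 := ZMod.val_cast_of_lt (by omega)
  have q1 := all ((1 : ℕ) : ZMod (2 * m + 1)) (mem_univ _)
  have q2 := all ((2 : ℕ) : ZMod (2 * m + 1)) (mem_univ _)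
  obtain ⟨k1, hk1⟩ := dv ((1 : ℕ) : ZMod (2 * m + 1)) d
  obtain ⟨k2, hk2⟩ := dv ((2 : ℕ) : ZMod (2 * m + 1)) d
  obtain ⟨l1, hl1⟩ := dv ((1 : ℕ) : ZMod (2 * m + 1)) e
  obtain ⟨l2, hl2⟩ := dv ((2 : ℕ) : ZMod (2 * m + 1)) e
  rw [v1] at q1 hk1 hl1
  rw [v2] at q2 hk2 hl2
  generalize (((1 : ℕ) : ZMod (2 * m + 1)) * d).valMinAbs = b1 at *
  generalize (((1 : ℕ) : ZMod (2 * m + 1)) * e).valMinAbs = c1 at *
  generalize (((2 : ℕ) : ZMod (2 * m + 1)) * d).valMinAbs = b2 at *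
  generalize (((2 : ℕ) : ZMod (2 * m + 1)) * e).valMinAbs = c2 at *
  push_cast at q1 q2 hk1 hk2 hl1 hl2
  refine fin m b1 c1 (k2 - 2 * k1) (l2 - 2 * l1) (by exact_mod_cast hm) (by linarith) ?_
  have f1 : 2 * b1 + (2 * (m : ℤ) + 1) * (k2 - 2 * k1) = b2 := by linear_combination 2 * hk1 - hk2
  have f2 : 2 * c1 + (2 * (m : ℤ) + 1) * (l2 - 2 * l1) = c2 := by linear_combination 2 * hl1 - hl2
  rw [f1, f2]
  linarith

end Cfsg.Agent.H1.K0Ar
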