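import Cfsg.Agent.H1.Op
import Cfsg.Agent.H8.Fusion
import Cfsg.Agent.S0143
import Cfsg.Agent.S0023
import Cfsg.Agent.S0562

/-!
The Kegel–Wielandt theorem: a finite product of two nilpotent subgroups is solvable.
-/

set_option autoImplicit false
open scoped Pointwise commutatorElement

namespace Cfsg.Agent.H1

open Subgroup

variable {G : Type*} [Group G]

theorem prime_dvd_card_sup [Finite G] {p q r : ℕ} (hp : p.Prime) (hq : q.Prime) (hr : r.Prime)
    {P Q : Subgroup G} (hP : IsPGroup p P) (hQ : IsPGroup q Q) (hN : P ≤ normalizer (Q : Set G))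
    (h : r ∣ Nat.card (P ⊔ Q : Subgroup G)) : r = p ∨ r = q :=
  (hr.dvd_mul.1 (h.trans (card_sup_dvd_of_le_normalizer hN))).imp
    (eq_of_prime_dvd_card_of_isPGroup hp hr hP) (eq_of_prime_dvd_card_of_isPGroup hq hr hQ)

theorem commutator_le_sup_aux [Finite G] {q t : ℕ} (hq : q.Prime) (ht : t.Prime) (hne : q ≠ t)
    {Q V S T : Subgroup G} (hQ : IsPGroup q Q) (hT : IsPGroup t T)
    (hQT : Q ≤ centralizer (T : Set G)) (hST : S ≤ centralizer (T : Set G))
    (h : ⁅Q, V⁆ ≤ S ⊔ T) : ⁅Q, V⁆ ≤ Q ⊔ S := by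
  have hTN : T ≤ normalizer ((Q ⊔ S : Subgroup G) : Set G) :=
    (le_centralizer_iff.1 (sup_le hQT hST)).trans (centralizer_le_normalizer _)
  have hle : S ⊔ T ≤ T ⊔ (Q ⊔ S) := sup_le (le_sup_right.trans le_sup_right) le_sup_left
  rw [commutator_le]
  intro a ha b hb
  have h1 : MulAut.conj b • Q ≤ Q ⊔ S := by
    refine le_of_isPGroup_of_not_dvd_relIndex hq (isPGroup_conj_smul b hQ)
      (N := T ⊔ (Q ⊔ S)) ?_ (sup_le hTN le_normalizer) ?_
    · rintro _ ⟨x, hx, rfl⟩
      change MulAut.conj b x ∈ _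
      rw [conj_eq_commutatorElement_mul]
      refine mul_mem (hle (h ?_)) (mem_sup_right (mem_sup_left hx))
      rw [commutator_comm]
      exact commutator_mem_commutator hb hx
    · rw [relIndex_sup_of_coe (coe_mul_of_left_le_normalizer_right _ _ hTN)]
      exact fun hd => hne (eq_of_prime_dvd_card_of_isPGroup ht hq hT
        (hd.trans (relIndex_dvd_card _ _)))
  have : ⁅a, b⁆ = a * (b * a⁻¹ * b⁻¹) := by rw [commutatorElement_def]; group
  rw [this]
  exact mul_mem (mem_sup_left ha) (h1 (conj_mem_conj_smul b (Q.inv_mem ha)))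

theorem Fac.not_dvd_index [Finite G] {A B : Subgroup G} (h : Fac A B) {t : ℕ}
    (ht : ¬ t ∣ Nat.card B) : ¬ t ∣ A.index := by
  rw [index_eq_relIndex_of_factorization h.symm]
  exact fun hd => ht (hd.trans (relIndex_dvd_card _ _))

theorem Op_le_of_fac [Finite G] {A B L : Subgroup G} (h : Fac (A.subgroupOf L) (B.subgroupOf L))
    {t : ℕ} (ht : t.Prime) (hB : ¬ t ∣ Nat.card B) : Op t L ≤ A := by
  refine le_of_normal_isPGroup_of_not_dvd_relIndex ht Op_isPGroup Op_le le_normalizer_Op ?_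
  refine h.not_dvd_index fun hd => hB (hd.trans ?_)
  rw [card_subgroupOf]
  exact card_dvd_of_le inf_le_left

/-- a minimal simple counterexample to Wielandt's theorem on coprime nilpotent factors -/
structure Cfg (A B : Subgroup G) : Prop where
  nA : Group.IsNilpotent A
  nB : Group.IsNilpotent B
  cop : (Nat.card A).Coprime (Nat.card B)
  fac : Fac A B
  simple : IsSimpleGroup G
  nsolv : ¬ Group.IsSolvable G
  ind : ∀ L : Subgroup G, L ≠ ⊤ → ∀ X Y : Subgroup L, Group.IsNilpotent X →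
    Group.IsNilpotent Y → Fac X Y → Group.IsSolvable L

namespace Cfg

variable {A B : Subgroup G}

theorem symm (h : Cfg A B) : Cfg B A :=
  ⟨h.nB, h.nA, h.cop.symm, h.fac.symm, h.simple, h.nsolv, h.ind⟩

theorem conj_right (h : Cfg A B) (g : G) : Cfg A (MulAut.conj g • B) :=
  ⟨h.nA, have := h.nB; isNilpotent_map _ B, by rw [card_conj_smul]; exact h.cop,
    h.fac.conj_right g, h.simple, h.nsolv, h.ind⟩

theorem inf_eq_bot (h : Cfg A B) : A ⊓ B = ⊥ :=
  disjoint_iff.1 (disjoint_of_coprime_natCard h.cop)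

theorem not_dvd_right (h : Cfg A B) {p : ℕ} (hp : p.Prime) (hd : p ∣ Nat.card A) :
    ¬ p ∣ Nat.card B := fun h' => hp.one_lt.ne' (Nat.eq_one_of_dvd_coprimes h.cop hd h')

theorem ne_top_of_isSolvable (h : Cfg A B) {X : Subgroup G} (hX : Group.IsSolvable X) :
    X ≠ ⊤ := by
  rintro rfl
  exact h.nsolv (Group.isSolvable_of_surjective (f := (⊤ : Subgroup G).subtype)
    fun g => ⟨⟨g, trivial⟩, rfl⟩)

theorem normalizer_ne_top (h : Cfg A B) {X : Subgroup G} (h0 : X ≠ ⊥) (h1 : X ≠ ⊤) :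
    normalizer (X : Set G) ≠ ⊤ := fun e =>
  have := h.simple
  ((normalizer_eq_top_iff.1 e).eq_bot_or_eq_top).elim h0 h1

theorem center_eq_bot (h : Cfg A B) : center G = ⊥ :=
  have := h.simple
  ((inferInstance : (center G).Normal).eq_bot_or_eq_top).resolve_right
    (h.ne_top_of_isSolvable H3.isSolvable_of_isMulCommutative)

theorem ne_bot (h : Cfg A B) : A ≠ ⊥ := by
  rintro rfl
  have h1 := h.fac.sup_eq_top
  rw [bot_sup_eq] at h1
  have := h.nB
  exact h.ne_top_of_isSolvable inferInstance h1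

theorem isSolvable_of_fac (h : Cfg A B) {L : Subgroup G} (hL : L ≠ ⊤)
    (hf : Fac (A.subgroupOf L) (B.subgroupOf L)) : Group.IsSolvable L :=
  h.ind L hL _ _ (H3.isNilpotent_subgroupOf h.nA L) (H3.isNilpotent_subgroupOf h.nB L) hf

theorem eq_bot_of_le (h : Cfg A B) {M Y : Subgroup G} (hM : M ≠ ⊤) (hAM : A ≤ M) (hYM : Y ≤ M)
    (hY : B ≤ normalizer (Y : Set G)) : Y = ⊥ := by
  have h1 := (h.fac.symm.mono le_rfl hAM).normalClosure_le hY hYM
  have := h.simple
  rcases (inferInstance : (normalClosure (Y : Set G)).Normal).eq_bot_or_eq_top with h2 | h2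
  · exact le_bot_iff.1 (h2 ▸ le_normalClosure)
  · exact absurd (top_le_iff.1 (h2 ▸ h1)) hM

variable [Finite G]

theorem normalizer_ne_top_of_isPGroup (h : Cfg A B) {p : ℕ} (hp : p.Prime) {X : Subgroup G}
    (hX : IsPGroup p X) (h0 : X ≠ ⊥) : normalizer (X : Set G) ≠ ⊤ :=
  have : Fact p.Prime := ⟨hp⟩
  have := hX.isNilpotent
  h.normalizer_ne_top h0 (h.ne_top_of_isSolvable inferInstance)

theorem index_eq (h : Cfg A B) : A.index = Nat.card B := by
  have h1 := h.fac.card
  rw [h.inf_eq_bot, card_bot, mul_one, ← card_mul_index A] at h1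
  exact Nat.eq_of_mul_eq_mul_left Nat.card_pos h1

theorem exists_central (h : Cfg A B) : ∃ a ∈ A, a ∈ centralizer (A : Set G) ∧ a ≠ 1 := by
  have := h.nA
  obtain ⟨⟨a, h1, h2⟩, h3⟩ := ne_bot_iff_exists_ne_one.1
    (inf_centralizer_ne_bot_of_isNilpotent (le_refl A) le_normalizer h.ne_bot)
  exact ⟨a, h1, h2, fun e => h3 (Subtype.ext e)⟩

theorem exists_prime_ne (h : Cfg A B) {p : ℕ} (hp : p.Prime) :
    ∃ q : ℕ, q.Prime ∧ q ≠ p ∧ q ∣ Nat.card A := by
  by_contra hcon
  obtain ⟨b, hb, hbc, hb1⟩ := h.symm.exists_central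
  have h1 : (centralizer ({b} : Set G)).index ∣ Nat.card A := by
    rw [← h.symm.index_eq]
    exact index_dvd_of_le fun x hx => mem_centralizer_singleton_iff.2 (hbc x hx)
  have h2 := Nat.eq_prime_pow_of_unique_prime_dvd (p := p)
    (index_ne_zero_of_finite (H := centralizer ({b} : Set G))) fun {d} hd hdm => by
      by_contra hne
      exact hcon ⟨d, hd, hne, hdm.trans h1⟩
  have := h.simple
  have h3 := S0143.result p _ hp b hb1 h2
  have : Fact (Nat.card G).Prime := ⟨h3⟩
  have := isCyclic_of_prime_card (p := Nat.card G) rfl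
  exact h.nsolv (Group.isSolvable_of_comm fun a b => mul_comm' a b)

theorem aux_max (h : Cfg A B) {X Y L : Subgroup G} (hXA : X ≤ A)
    (hAX : A ≤ normalizer (X : Set G)) (hXL : X ≤ L) (hYL : Y ≤ L) (hY0 : Y ≠ ⊥)
    (hBY : B ≤ normalizer (Y : Set G)) (hL : L ≠ ⊤)
    (hf : Fac (A.subgroupOf L) (B.subgroupOf L))
    (hmax : ∀ X', X ≤ X' → X' ≤ A → A ≤ normalizer (X' : Set G) → X' ⊔ Y ≠ ⊤ → X' ≤ X) :
    (∀ t : ℕ, t.Prime → ¬ t ∣ Nat.card B → Op t L ≠ ⊥ → ∀ q : ℕ, q.Prime → q ≠ t →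
      Op q A ≤ L ∧ Op q A ≤ centralizer (Op t L : Set G)) ∧
    (∀ t u : ℕ, t.Prime → u.Prime → ¬ t ∣ Nat.card B → ¬ u ∣ Nat.card B → Op t L ≠ ⊥ →
      Op u L ≠ ⊥ → t = u) ∧
    ∃ s : ℕ, s.Prime ∧ s ∣ Nat.card B ∧ Op s L ≠ ⊥ := by
  have := h.nA
  have h1 : ∀ t : ℕ, t.Prime → ¬ t ∣ Nat.card B → Op t L ≠ ⊥ → ∀ q : ℕ, q.Prime → q ≠ t →
      Op q A ≤ L ∧ Op q A ≤ centralizer (Op t L : Set G) := by
    intro t ht htB hT q hq hqt
    have hc : Op q A ≤ centralizer (Op t L : Set G) :=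
      (Op_le_centralizer_Op hq ht hqt).trans (centralizer_le
        (le_Op_of_isNilpotent ht Op_isPGroup (Op_le_of_fac hf ht htB)))
    refine ⟨le_sup_right.trans ((hmax (X ⊔ Op q A) le_sup_left (sup_le hXA Op_le) ?_ ?_).trans
      hXL), hc⟩
    · exact (le_inf hAX le_normalizer_Op).trans (normalizer_inf_normalizer_le_normalizer_sup _ _)
    · refine ne_top_of_le_ne_top (h.normalizer_ne_top_of_isPGroup ht Op_isPGroup hT) ?_
      exact sup_le (sup_le (hXL.trans le_normalizer_Op) (hc.trans (centralizer_le_normalizer _)))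
        (hYL.trans le_normalizer_Op)
  have h2 : ∀ t u : ℕ, t.Prime → u.Prime → ¬ t ∣ Nat.card B → ¬ u ∣ Nat.card B → Op t L ≠ ⊥ →
      Op u L ≠ ⊥ → t = u := by
    intro t u ht hu htB huB hT hU
    by_contra hne
    refine hY0 (h.eq_bot_of_le hL (le_of_forall_Op_le fun q hq => ?_) hYL hBY)
    by_cases hqt : q = t
    · exact (h1 u hu huB hU q hq (hqt ▸ hne)).1
    · exact (h1 t ht htB hT q hq hqt).1
  refine ⟨h1, h2, ?_⟩
  by_contra hcon
  push Not at hcon
  have := h.isSolvable_of_fac hL hf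
  obtain ⟨t, P, ht, hP, -, hP0, hPL, hPN⟩ := exists_pGroup_of_isSolvable (A := L)
    fun e => hY0 (le_bot_iff.1 (e ▸ hYL))
  have hT : Op t L ≠ ⊥ := fun e => hP0 (le_bot_iff.1 (e ▸ le_Op hP hPL (le_normalizer.trans hPN)))
  have htB : ¬ t ∣ Nat.card B := fun hd => hT (hcon t ht hd)
  obtain ⟨q, hq, hqt, hqA⟩ := h.exists_prime_ne ht
  have h3 : ∀ r : ℕ, r.Prime → Op r L ≤ Op t L := by
    intro r hr
    by_cases hR : Op r L = ⊥
    · rw [hR]; exact bot_le
    · rw [h2 r t hr ht (fun hd => hR (hcon r hr hd)) htB hR hT]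
  have h4 : Op q A ≤ Op t L := le_of_le_centralizer_Op (h1 t ht htB hT q hq hqt).1
    (fun r hr => (h1 t ht htB hT q hq hqt).2.trans (centralizer_le (h3 r hr))) h3
  exact Op_ne_bot_of_dvd hq hqA
    (eq_bot_of_isPGroup_of_isPGroup hq ht hqt Op_isPGroup (Op_isPGroup.to_le h4))

/-- nontrivial normal subgroups of the two factors generate the group -/
theorem sup_eq_top (h : Cfg A B) {X Y : Subgroup G} (hX0 : X ≠ ⊥) (hXA : X ≤ A)
    (hAX : A ≤ normalizer (X : Set G)) (hY0 : Y ≠ ⊥) (hYB : Y ≤ B)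
    (hBY : B ≤ normalizer (Y : Set G)) : X ⊔ Y = ⊤ := by
  by_contra hcon
  obtain ⟨⟨X, Y⟩, -, hm⟩ := exists_maximal_ge_of_wellFoundedGT
    (fun Z : Subgroup G × Subgroup G => Z.1 ≠ ⊥ ∧ Z.1 ≤ A ∧ A ≤ normalizer (Z.1 : Set G) ∧
      Z.2 ≠ ⊥ ∧ Z.2 ≤ B ∧ B ≤ normalizer (Z.2 : Set G) ∧ Z.1 ⊔ Z.2 ≠ ⊤) (X, Y)
    ⟨hX0, hXA, hAX, hY0, hYB, hBY, hcon⟩
  clear hX0 hXA hAX hY0 hYB hBY hcon
  obtain ⟨hX0, hXA, hAX, hY0, hYB, hBY, hcon⟩ := hm.prop
  simp only at hX0 hXA hAX hY0 hYB hBY hcon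
  set L := normalizer ((X ⊔ Y : Subgroup G) : Set G) with hLdef
  have hL : L ≠ ⊤ := h.normalizer_ne_top (fun e => hX0 (le_bot_iff.1 (e ▸ le_sup_left))) hcon
  have hXL : X ≤ L := le_sup_left.trans le_normalizer
  have hYL : Y ≤ L := le_sup_right.trans le_normalizer
  have hf : Fac (A.subgroupOf L) (B.subgroupOf L) := by
    rintro ⟨g, hg⟩
    obtain ⟨a, ha, b, hb, e⟩ := S0562.result A B X Y h.fac hXA
      (normal_subgroupOf_of_le_normalizer hAX) hYB (normal_subgroupOf_of_le_normalizer hBY) g hg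
    exact ⟨⟨a, ha.1⟩, ha.2, ⟨b, hb.1⟩, hb.2, Subtype.ext e⟩
  obtain ⟨a1, a2, s, hs, hsB, hS⟩ := h.aux_max hXA hAX hXL hYL hY0 hBY hL hf
    fun X' h1 h2 h3 h4 => (hm.le_of_ge (y := (X', Y))
      ⟨fun e => hX0 (le_bot_iff.1 (e ▸ h1)), h2, h3, hY0, hYB, hBY, h4⟩ ⟨h1, le_rfl⟩).1
  obtain ⟨b1, b2, t, ht, htA, hT⟩ := h.symm.aux_max hYB hBY hYL hXL hX0 hAX hL hf.symm
    fun Y' h1 h2 h3 h4 => (hm.le_of_ge (y := (X, Y'))
      ⟨hX0, hXA, hAX, fun e => hY0 (le_bot_iff.1 (e ▸ h1)), h2, h3, by rwa [sup_comm]⟩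
      ⟨le_rfl, h1⟩).2
  have htB := h.not_dvd_right ht htA
  have hsA := h.symm.not_dvd_right hs hsB
  have hst : s ≠ t := fun e => hsA (e ▸ htA)
  obtain ⟨q, hq, hqt, hqA⟩ := h.exists_prime_ne ht
  obtain ⟨v, hv, hvs, hvB⟩ := h.symm.exists_prime_ne hs
  obtain ⟨hQL, hQT⟩ := a1 t ht htB hT q hq hqt
  obtain ⟨hVL, hVS⟩ := b1 s hs hsA hS v hv hvs
  have hr : ∀ r : ℕ, r.Prime → Op r L ≤ Op s L ∨ Op r L ≤ Op t L := by
    intro r hr
    by_cases hR : Op r L = ⊥
    · rw [hR]; exact Or.inl bot_le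
    by_cases hrB : r ∣ Nat.card B
    · exact Or.inl (by rw [b2 r s hr hs (h.symm.not_dvd_right hr hrB) hsA hR hS])
    · exact Or.inr (by rw [a2 r t hr ht hrB htB hR hT])
  have := h.isSolvable_of_fac hL hf
  have hc : ⁅Op q A, Op v B⁆ ≤ Op s L ⊔ Op t L := by
    refine le_of_le_centralizer_Op (L := L) ((commutator_le_sup _ _).trans (sup_le hQL hVL))
      (fun r hr' => ?_) (fun r hr' => (hr r hr').elim le_sup_left.trans' le_sup_right.trans')
    rcases hr r hr' with h1 | h1
    · refine le_trans ?_ (centralizer_le h1)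
      refine (commutator_mono le_rfl hVS).trans (le_normalizer_iff_commutator_le_right.1 ?_)
      exact hQL.trans (le_normalizer_Op.trans (normalizer_le_normalizer_centralizer _))
    · refine le_trans ?_ (centralizer_le h1)
      refine (commutator_mono hQT le_rfl).trans (le_normalizer_iff_commutator_le_left.1 ?_)
      exact hVL.trans (le_normalizer_Op.trans (normalizer_le_normalizer_centralizer _))
  have hc1 : ⁅Op q A, Op v B⁆ ≤ Op q A ⊔ Op s L :=
    commutator_le_sup_aux hq ht hqt Op_isPGroup Op_isPGroup hQT (Op_le_centralizer_Op hs ht hst) hc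
  have hc2 : ⁅Op v B, Op q A⁆ ≤ Op v B ⊔ Op t L :=
    commutator_le_sup_aux hv hs hvs Op_isPGroup Op_isPGroup hVS
      (Op_le_centralizer_Op ht hs hst.symm) (by rwa [commutator_comm, sup_comm])
  rw [commutator_comm] at hc2
  have hc3 : ⁅Op q A, Op v B⁆ = ⊥ := by
    by_contra hne
    obtain ⟨r, hr', hd⟩ := H3.exists_prime_dvd_card hne
    have e1 := prime_dvd_card_sup hq hs hr' Op_isPGroup Op_isPGroup (hQL.trans le_normalizer_Op)
      (hd.trans (card_dvd_of_le hc1))
    have e2 := prime_dvd_card_sup hv ht hr' Op_isPGroup Op_isPGroup (hVL.trans le_normalizer_Op)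
      (hd.trans (card_dvd_of_le hc2))
    rcases e1 with e1 | e1 <;> rcases e2 with e2 | e2
    · exact h.not_dvd_right hq hqA (e1 ▸ e2 ▸ hvB)
    · exact hqt (e1.symm.trans e2)
    · exact hvs (e2.symm.trans e1)
    · exact hst (e1.symm.trans e2)
  have := h.nA
  have := h.nB
  refine Op_ne_bot_of_dvd hv hvB (h.eq_bot_of_le
    (h.normalizer_ne_top_of_isPGroup hq Op_isPGroup (Op_ne_bot_of_dvd hq hqA)) le_normalizer_Op
    ?_ le_normalizer_Op)
  exact (le_centralizer_iff.1 (commutator_eq_bot_iff_le_centralizer.1 hc3)).trans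
    (centralizer_le_normalizer _)

theorem mem_of_commute (h : Cfg A B) {a g : G} (ha : a ∈ A) (hac : a ∈ centralizer (A : Set G))
    (ha1 : a ≠ 1) (hg : g * a = a * g) : g ∈ A := by
  obtain ⟨b, hb, hbc, hb1⟩ := h.symm.exists_central
  have key : ∀ {A : Subgroup G} {a : G}, a ∈ centralizer (A : Set G) →
      A ≤ normalizer (zpowers a : Set G) := fun hac =>
    (le_centralizer_iff.1 (zpowers_le.2 hac)).trans (centralizer_le_normalizer _)
  have h1 := h.sup_eq_top (zpowers_ne_bot.2 ha1) (zpowers_le.2 ha) (key hac)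
    (zpowers_ne_bot.2 hb1) (zpowers_le.2 hb) (key hbc)
  obtain ⟨x, hx, y, hy, rfl⟩ := h.fac g
  have h2 : y * a = a * y := by
    rw [mul_assoc, ← mul_assoc a, ← hac x hx, mul_assoc] at hg
    exact mul_left_cancel hg
  have h3 : y ∈ center G := by
    have : zpowers a ⊔ zpowers b ≤ centralizer {y} :=
      sup_le (zpowers_le.2 (mem_centralizer_singleton_iff.2 h2.symm))
        (zpowers_le.2 (mem_centralizer_singleton_iff.2 (hbc y hy).symm))
    rw [h1] at this
    exact mem_center_iff.2 fun g => mem_centralizer_singleton_iff.1 (this (mem_top g))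
  rw [h.center_eq_bot, mem_bot] at h3
  rwa [h3, mul_one]

theorem exists_central_Op (h : Cfg A B) {q : ℕ} (hq : q.Prime) (hqA : q ∣ Nat.card A) :
    ∃ a ∈ Op q A, a ∈ centralizer (A : Set G) ∧ a ≠ 1 := by
  have := h.nA
  obtain ⟨⟨a, h1, h2⟩, h3⟩ := ne_bot_iff_exists_ne_one.1
    (inf_centralizer_ne_bot_of_isNilpotent (Op_le (p := q) (L := A)) le_normalizer_Op
      (Op_ne_bot_of_dvd hq hqA))
  exact ⟨a, h1, h2, fun e => h3 (Subtype.ext e)⟩

/-- a central element of `A` of prime power order lies in only one conjugate of `A` -/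
theorem mem_normalizer_of_conj_mem (h : Cfg A B) {r : ℕ} (hr : r.Prime) {a g : G}
    (ha : a ∈ Op r A) (hac : a ∈ centralizer (A : Set G)) (ha1 : a ≠ 1)
    (hg : g * a * g⁻¹ ∈ A) : g ∈ normalizer (A : Set G) := by
  have := h.nA
  have h' := (h.symm.conj_right g).symm
  have := h'.nA
  obtain ⟨q, hq, hqr, hqA⟩ := h.exists_prime_ne hr
  have h1 : g * a * g⁻¹ ∈ Op r A := by
    refine le_Op_of_isNilpotent hr (U := zpowers (g * a * g⁻¹)) ?_ (zpowers_le.2 hg) (mem_zpowers _)
    exact (isPGroup_conj_smul g Op_isPGroup).to_le (zpowers_le.2 (conj_mem_conj_smul g ha))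
  have h2 : Op q A ≤ MulAut.conj g • A := by
    intro x hx
    refine h'.mem_of_commute (conj_mem_conj_smul g (Op_le ha)) ?_ (by simpa using ha1) ?_
    · rw [centralizer_conj_smul]; exact conj_mem_conj_smul g hac
    · exact (Op_le_centralizer_Op hq hr hqr hx _ h1).symm
  have h3 : Op q A = Op q (MulAut.conj g • A) :=
    eq_of_le_of_card_le (le_Op_of_isNilpotent hq Op_isPGroup h2)
      (by rw [Op_conj_smul, card_conj_smul])
  obtain ⟨t, ht, htc, ht1⟩ := h'.exists_central_Op hq (by rwa [card_conj_smul])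
  have h4 : t ∈ centralizer (A : Set G) := by
    have : A ≤ centralizer {t} := by
      refine le_of_forall_Op_le fun u hu x hx => mem_centralizer_singleton_iff.2 ?_
      by_cases huq : u = q
      · subst huq
        exact htc x (h2 hx)
      · exact (Op_le_centralizer_Op hu hq huq hx t (h3 ▸ ht)).symm
    exact fun x hx => mem_centralizer_singleton_iff.1 (this hx)
  rw [mem_normalizer_iff_conj_smul]
  refine eq_of_le_of_card_le (fun x hx => ?_) (by rw [card_conj_smul])
  exact h.mem_of_commute (Op_le (h3 ▸ ht)) h4 ht1 (htc x hx)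

omit [Finite G] in
theorem centralizer_singleton_ne_top (h : Cfg A B) {y : G} (hy : y ≠ 1) :
    centralizer ({y} : Set G) ≠ ⊤ := by
  intro e
  have : y ∈ center G := mem_center_iff.2 fun g =>
    mem_centralizer_singleton_iff.1 (e ▸ mem_top g)
  rw [h.center_eq_bot, mem_bot] at this
  exact hy this

theorem Op_le_centralizer_singleton (h : Cfg A B) {p q : ℕ} (hp : p.Prime) (hq : q.Prime)
    (hqp : q ≠ p) {y : G} (hy : y ∈ A) (hyp : orderOf y = p) :
    Op q A ≤ centralizer ({y} : Set G) := by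
  have := h.nA
  have h1 : y ∈ Op p A := le_Op_of_isNilpotent hp (isPGroup_zpowers_of_orderOf hyp)
    (zpowers_le.2 hy) (mem_zpowers y)
  exact fun x hx => mem_centralizer_singleton_iff.2 (Op_le_centralizer_Op hq hp hqp hx y h1).symm

/-- a nontrivial `s`-subgroup, `s ∣ |B|`, is not normalized by a Sylow subgroup of `A` -/
theorem eq_bot_of_le_normalizer (h : Cfg A B) {q s : ℕ} (hq : q.Prime) (hqA : q ∣ Nat.card A)
    (hs : s.Prime) (hsA : ¬ s ∣ Nat.card A) {R : Subgroup G} (hR : IsPGroup s R)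
    (hN : Op q A ≤ normalizer (R : Set G)) : R = ⊥ := by
  by_contra hne
  have : Fact s.Prime := ⟨hs⟩
  obtain ⟨g, hg⟩ := exists_conj_le_of_not_dvd_index hR (h.fac.symm.not_dvd_index hsA)
  rw [pointwise_smul_subset_iff, ← map_inv] at hg
  have h' := h.conj_right g⁻¹
  have := h.nA
  have := h'.nB
  obtain ⟨v, hv, hvs, hvB⟩ := h'.symm.exists_prime_ne hs
  have h1 := h'.sup_eq_top (Op_ne_bot_of_dvd hq hqA) Op_le le_normalizer_Op
    (Op_ne_bot_of_dvd hv hvB) Op_le le_normalizer_Op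
  refine h.normalizer_ne_top_of_isPGroup hs hR hne (top_le_iff.1 (h1 ▸ sup_le hN ?_))
  exact ((Op_le_centralizer_Op hv hs hvs).trans
    (centralizer_le (le_Op_of_isNilpotent hs hR hg))).trans (centralizer_le_normalizer _)

theorem centralizer_le_normalizer_of_mem (h : Cfg A B) {p : ℕ} (hp : p.Prime) {y : G}
    (hy : y ∈ A) (hyp : orderOf y = p) (hyB : y ∈ normalizer (B : Set G)) :
    centralizer ({y} : Set G) ≤ normalizer (A : Set G) := by
  have := h.nA
  have hy1 : y ≠ 1 := by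
    rintro rfl
    exact hp.one_lt.ne (by rw [← hyp, orderOf_one])
  set C := centralizer ({y} : Set G) with hC
  have hf : Fac (A.subgroupOf C) (B.subgroupOf C) := by
    rintro ⟨g, hg⟩
    obtain ⟨a, ha, b, hb, rfl⟩ := h.fac g
    have hg' := mem_centralizer_singleton_iff.1 hg
    have h1 : b * y * b⁻¹ * y⁻¹ ∈ A ⊓ B := by
      refine ⟨?_, ?_⟩
      · have : b * y * b⁻¹ * y⁻¹ = a⁻¹ * y * a * y⁻¹ := by
          calc b * y * b⁻¹ * y⁻¹ = a⁻¹ * (a * b * y) * b⁻¹ * y⁻¹ := by group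
            _ = _ := by rw [hg']; group
        rw [this]
        exact A.mul_mem (A.mul_mem (A.mul_mem (A.inv_mem ha) hy) ha) (A.inv_mem hy)
      · have : b * y * b⁻¹ * y⁻¹ = b * (y * b⁻¹ * y⁻¹) := by group
        rw [this]
        exact B.mul_mem hb ((mem_normalizer_iff.1 hyB _).1 (B.inv_mem hb))
    rw [h.inf_eq_bot, mem_bot] at h1
    have hbC : b ∈ C := mem_centralizer_singleton_iff.2
      (commutatorElement_eq_one_iff_mul_comm.1 h1)
    exact ⟨⟨a, (C.mul_mem_cancel_right hbC).1 hg⟩, ha, ⟨b, hbC⟩, hb, rfl⟩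
  have := h.isSolvable_of_fac (h.centralizer_singleton_ne_top hy1) hf
  obtain ⟨q, hq, hqp, hqA⟩ := h.exists_prime_ne hp
  have hQC : Op q A ≤ C := h.Op_le_centralizer_singleton hp hq hqp hy hyp
  have hOp : ∀ r : ℕ, r.Prime → Op r C ≤ A := by
    intro r hr
    by_cases hrB : r ∣ Nat.card B
    · rw [h.eq_bot_of_le_normalizer hq hqA hr (h.symm.not_dvd_right hr hrB) Op_isPGroup
        (hQC.trans le_normalizer_Op)]
      exact bot_le
    · exact Op_le_of_fac hf hr hrB
  obtain ⟨a, ha, hac, ha1⟩ := h.exists_central_Op hq hqA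
  intro c hc
  refine h.mem_normalizer_of_conj_mem hq ha hac ha1 ?_
  refine le_of_le_centralizer_Op (L := C) (X := zpowers (c * a * c⁻¹)) (zpowers_le.2 ?_)
    (fun r hr => zpowers_le.2 ?_) hOp (mem_zpowers _)
  · exact C.mul_mem (C.mul_mem hc (hQC ha)) (C.inv_mem hc)
  · exact (mem_normalizer_iff.1 (normalizer_le_normalizer_centralizer _ (le_normalizer_Op hc)) a).1
      (centralizer_le (hOp r hr) hac)

theorem centralizer_le_normalizer_left (h : Cfg A B) {p : ℕ} (hp : p.Prime) {x : G}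
    (hx : x ∈ A) (hxp : orderOf x = p) :
    centralizer ({x} : Set G) ≤ normalizer (A : Set G) := by
  have := h.nA
  set C := centralizer ({x} : Set G) with hC
  by_cases hW : C ⊓ normalizer (A : Set G) ≤ A
  swap
  · have : ∃ s : ℕ, s.Prime ∧ s ∣ Nat.card B ∧
        s ∣ Nat.card (C ⊓ normalizer (A : Set G) : Subgroup G) := by
      by_contra hcon
      refine hW (le_of_forall_sylow_le fun s hs P => ?_)
      by_cases hP : (P : Subgroup (C ⊓ normalizer (A : Set G) : Subgroup G)).map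
        (C ⊓ normalizer (A : Set G)).subtype = ⊥
      · rw [hP]; exact bot_le
      refine le_of_isPGroup_of_not_dvd_relIndex hs.out (P.isPGroup'.map _)
        ((map_subtype_le _).trans inf_le_right) le_rfl fun hd => hcon ⟨s, hs.out, ?_, ?_⟩
      · rw [← h.index_eq]
        exact hd.trans (relIndex_dvd_index_of_le le_normalizer)
      · exact (dvd_card_of_isPGroup_of_ne_bot hs.out (P.isPGroup'.map _) hP).trans
          (card_dvd_of_le (map_subtype_le _))
    obtain ⟨s, hs, hsB, hsW⟩ := this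
    obtain ⟨z, ⟨hzC, hzN⟩, hzs⟩ := H3.exists_mem_orderOf_eq_prime hs hsW
    have : Fact s.Prime := ⟨hs⟩
    obtain ⟨g, hg⟩ := exists_conj_le_of_not_dvd_index (isPGroup_zpowers_of_orderOf hzs)
      (h.fac.symm.not_dvd_index (h.symm.not_dvd_right hs hsB))
    rw [pointwise_smul_subset_iff, ← map_inv] at hg
    have h' := h.conj_right g⁻¹
    have h1 := h'.symm.centralizer_le_normalizer_of_mem hs (hg (mem_zpowers z)) hzs hzN
    refine h'.centralizer_le_normalizer_of_mem hp hx hxp (h1 ?_)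
    exact mem_centralizer_singleton_iff.2 (mem_centralizer_singleton_iff.1 hzC).symm
  obtain ⟨q, hq, hqp, hqA⟩ := h.exists_prime_ne hp
  have : Fact q.Prime := ⟨hq⟩
  have hQC : Op q A ≤ C := h.Op_le_centralizer_singleton hp hq hqp hx hxp
  have hQi : ¬ q ∣ (Op q A).index :=
    not_dvd_index_Op hq (h.fac.not_dvd_index (h.not_dvd_right hq hqA))
  obtain ⟨a, ha, hac, ha1⟩ := h.exists_central_Op hq hqA
  have hQS : H8.IsSylowIn q (Op q A) C :=
    ⟨hQC, Op_isPGroup, fun hd => hQi (hd.trans (relIndex_dvd_index_of_le hQC))⟩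
  -- `C` has a normal `q`-complement
  have hcompl : HasNormalPComplement q C := by
    let Z : Subgroup C := ((Op q A) ⊓ centralizer (A : Set G)).subgroupOf C
    have hZN : ∀ n : C, (∀ z ∈ Z, n * z * n⁻¹ ∈ (Op q A).subgroupOf C) → (n : G) ∈ A := by
      intro n hn
      refine hW ⟨n.2, h.mem_normalizer_of_conj_mem hq ha hac ha1 ?_⟩
      exact Op_le (hn ⟨a, hQC ha⟩ ⟨ha, hac⟩)
    have hwc : IsWeaklyClosed Z (hQS.toSylow : Subgroup C) := by
      refine ⟨fun z hz => hz.1, fun g hg => ?_⟩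
      have hgA := hZN g fun z hz => hg (mem_map_of_mem _ hz)
      refine eq_of_le_of_card_le ?_ (card_conj_smul g Z).ge
      rintro _ ⟨z, hz, rfl⟩
      have : (MulAut.conj g).toMonoidHom z = z := by
        refine Subtype.ext ?_
        change (g : G) * z * (g : G)⁻¹ = z
        rw [show (g : G) * z = z * g from hz.2 g hgA, mul_inv_cancel_right]
      rwa [this]
    refine H8.hasNormalPComplement_of_fusion hQS.toSylow (V := A.subgroupOf C)
      (fun z hz => Op_le (p := q) (L := A) hz) ?_ fun y hy g hg => ?_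
    · have := H3.isNilpotent_subgroupOf h.nA C
      refine H8.hasNormalPComplement_of_forall_centralizes fun Q hQ g hg hgo => ?_
      have h1 : IsPGroup q (Op q (⊤ : Subgroup (A.subgroupOf C))) := Op_isPGroup
      have h2 : zpowers g ≤ centralizer (Q : Set (A.subgroupOf C)) := by
        refine le_of_forall_sylow_le fun r hr P => ?_
        by_cases hP : (P : Subgroup (zpowers g)).map (zpowers g).subtype = ⊥
        · rw [hP]; exact bot_le
        have hrq : r ≠ q := by
          rintro rfl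
          have h3 := (dvd_card_of_isPGroup_of_ne_bot hr.out (P.isPGroup'.map _) hP).trans
            (card_dvd_of_le (map_subtype_le _))
          rw [Nat.card_zpowers] at h3
          exact hq.one_lt.ne' (Nat.eq_one_of_dvd_coprimes hgo h3 dvd_rfl)
        exact (le_Op_of_isNilpotent hr.out (P.isPGroup'.map _) le_top).trans
          ((Op_le_centralizer_Op hr.out hq hrq).trans
            (centralizer_le (le_Op_of_isNilpotent hq hQ le_top)))
      exact h2 (mem_zpowers g)
    · obtain ⟨n, hn, e⟩ := H8.IsWeaklyClosed.fusion_of_le_centralizer hQS.toSylow hwc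
        (fun z hz w hw => Subtype.ext (hz.2 w (Op_le hw))) hy hg
      exact ⟨n, hZN n fun z hz => ((mem_normalizer_iff.1 hn z).1 hz).1, e⟩
  have hc := H8.HasNormalPComplement.isComplement' hcompl hQS.toSylow
  set K := (pResidual q C).map C.subtype with hK
  have hKN : C ≤ normalizer (K : Set G) := le_normalizer.trans
    (H8.normalizer_le_normalizer_pResidual C)
  have hKq : ¬ q ∣ Nat.card K := by
    rw [hK, card_map_of_injective C.subtype_injective]
    exact H8.hasNormalPComplement_iff_not_dvd.1 hcompl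
  have hcop : (Nat.card (Op q A)).Coprime (Nat.card K) :=
    H3.coprime_card_of_isPGroup Op_isPGroup ((Nat.Prime.coprime_iff_not_dvd hq).2 hKq)
  have hQs : Group.IsSolvable (Op q A) := have := (Op_isPGroup (p := q) (L := A)).isNilpotent
    inferInstance
  have hKA : K ≤ A := by
    choose P hP using fun r : Nat.Primes => have : Fact (r : ℕ).Prime := ⟨r.2⟩
      S0023.result (Op q A) K (hQC.trans hKN) hcop (Or.inl hQs) r
    have h1 := congrArg (Subgroup.map K.subtype) (iSup_sylow_eq_top P)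
    rw [← MonoidHom.range_eq_map, range_subtype, Subgroup.map_iSup] at h1
    rw [← h1]
    refine iSup_le fun r => ?_
    set R := (P r : Subgroup K).map K.subtype
    have hR : IsPGroup r R := (P r).isPGroup'.map _
    by_cases hR0 : R = ⊥
    · rw [hR0]; exact bot_le
    by_cases hrA : (r : ℕ) ∣ Nat.card A
    swap
    · exact absurd (h.eq_bot_of_le_normalizer hq hqA r.2 hrA hR (hP r)) hR0
    have hrq : q ≠ r := by
      rintro rfl
      exact hKq ((dvd_card_of_isPGroup_of_ne_bot hq hR hR0).trans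
        (card_dvd_of_le (map_subtype_le _)))
    have : Fact (r : ℕ).Prime := ⟨r.2⟩
    obtain ⟨g, hg⟩ := exists_conj_le_of_not_dvd_index hR
      (h.fac.not_dvd_index (h.not_dvd_right r.2 hrA))
    have h2 : Op q A ≤ centralizer ((MulAut.conj g • R : Subgroup G) : Set G) :=
      (Op_le_centralizer_Op hq r.2 hrq).trans
        (centralizer_le (le_Op_of_isNilpotent r.2 (isPGroup_conj_smul g hR) hg))
    have h3 : Op q A ≤ centralizer (R : Set G) := by
      refine le_of_isPGroup_of_not_dvd_relIndex hq Op_isPGroup (hP r)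
        (normalizer_le_normalizer_centralizer R) fun hd => hQi ?_
      have h4 := hd.trans (relIndex_dvd_index_of_le (centralizer_le_normalizer _))
      rw [← index_conj_smul g, ← centralizer_conj_smul] at h4
      exact h4.trans (index_dvd_of_le h2)
    exact fun y hy => h.mem_of_commute (Op_le ha) hac ha1 (h3 ha y hy)
  refine le_trans ?_ le_normalizer
  have h5 := congrArg (Subgroup.map C.subtype) hc.sup_eq_top
  rw [← MonoidHom.range_eq_map, range_subtype, Subgroup.map_sup, hQS.map_toSylow] at h5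
  rw [← h5]
  exact sup_le hKA Op_le

theorem inf_conj_eq_bot (h : Cfg A B) {g : G} (hg : g ∉ normalizer (A : Set G)) :
    A ⊓ MulAut.conj g • A = ⊥ := by
  by_contra hne
  obtain ⟨p, hp, hd⟩ := H3.exists_prime_dvd_card hne
  obtain ⟨x, ⟨hx, hx'⟩, hxp⟩ := H3.exists_mem_orderOf_eq_prime hp hd
  have := h.nA
  obtain ⟨q, hq, -, hqA⟩ := h.exists_prime_ne hp
  obtain ⟨a, ha, hac, ha1⟩ := h.exists_central_Op hq hqA
  refine hg (h.mem_normalizer_of_conj_mem hq ha hac ha1 ?_)
  have h1 : g * a * g⁻¹ ∈ normalizer (A : Set G) := by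
    refine h.centralizer_le_normalizer_left hp hx hxp (mem_centralizer_singleton_iff.2 ?_)
    have := hac _ (mem_conj_smul_iff.1 hx')
    calc g * a * g⁻¹ * x = g * (a * (g⁻¹ * x * g)) * g⁻¹ := by group
      _ = _ := by rw [← this]; group
  refine le_of_isPGroup_of_not_dvd_relIndex hq (U := zpowers (g * a * g⁻¹))
    ((isPGroup_conj_smul g Op_isPGroup).to_le (zpowers_le.2 (conj_mem_conj_smul g ha)))
    (zpowers_le.2 h1) le_rfl (fun hd => ?_) (mem_zpowers _)
  exact h.fac.not_dvd_index (h.not_dvd_right hq hqA)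
    (hd.trans (relIndex_dvd_index_of_le le_normalizer))

theorem card_le (h : Cfg A B) : Nat.card A ≤ Nat.card B := by
  have := h.nA
  have h1 := h.normalizer_ne_top h.ne_bot (h.ne_top_of_isSolvable inferInstance)
  obtain ⟨g, hg⟩ : ∃ g, g ∉ normalizer (A : Set G) := by
    by_contra hcon
    push Not at hcon
    exact h1 (eq_top_iff.2 fun g _ => hcon g)
  have h2 := card_set_mul_mul_card_inf A (MulAut.conj g • A)
  rw [h.inf_conj_eq_bot hg, card_bot, mul_one, card_conj_smul] at h2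
  have h3 : Nat.card ((A : Set G) * ((MulAut.conj g • A : Subgroup G) : Set G) : Set G) ≤
      Nat.card G := Nat.card_le_card_of_injective _ Subtype.val_injective
  rw [h2, ← card_mul_index A, h.index_eq] at h3
  exact Nat.le_of_mul_le_mul_left h3 Nat.card_pos

theorem false (h : Cfg A B) : False := by
  have h1 := le_antisymm h.card_le h.symm.card_le
  have h2 := h.cop
  rw [← h1, Nat.coprime_self] at h2
  exact h.ne_bot (card_eq_one.1 h2)

end Cfg

theorem map_sylow_eq_Op [Finite G] {p : ℕ} [Fact p.Prime] {A : Subgroup G} [Group.IsNilpotent A]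
    (P : Sylow p A) : (P : Subgroup A).map A.subtype = Op p A := by
  rw [Op, H3.pCore_eq_sylow_of_normal P]

theorem Permutes.subgroupOf {A B T : Subgroup G} (h : Permutes A B) (hA : A ≤ T) (hB : B ≤ T) :
    Permutes (A.subgroupOf T) (B.subgroupOf T) := by
  refine Permutes.of_subset ?_
  rintro _ ⟨a, ha, b, hb, rfl⟩
  obtain ⟨b', hb', a', ha', e⟩ : (a : G) * b ∈ (B : Set G) * (A : Set G) :=
    h ▸ ⟨a, ha, b, hb, rfl⟩
  exact ⟨⟨b', hB hb'⟩, hb', ⟨a', hA ha'⟩, ha', Subtype.ext e⟩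

/-- Kegel's lemma inside a subgroup `T` -/
theorem kegel_in [Finite G] {A B T : Subgroup G} (hA : A ≤ T) (hB : B ≤ T)
    (h : ∀ x ∈ T, Permutes A (MulAut.conj x • B)) (hne : A ⊔ B ≠ T) :
    ∃ N : Subgroup G, N < T ∧ T ≤ normalizer (N : Set G) ∧ (A ≤ N ∨ B ≤ N) := by
  obtain ⟨N, h1, h2, h3⟩ := kegel (A := A.subgroupOf T) (B := B.subgroupOf T)
    (fun x => by
      rw [conj_smul_subgroupOf hB]
      exact (h x x.2).subgroupOf hA (conj_smul_le_of_mem hB x.2))
    (fun hf => hne (by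
      have := congrArg (Subgroup.map T.subtype) hf.sup_eq_top
      rwa [Subgroup.map_sup, map_subgroupOf_eq_of_le hA, map_subgroupOf_eq_of_le hB,
        ← MonoidHom.range_eq_map, range_subtype] at this))
  refine ⟨N.map T.subtype, lt_of_le_of_ne (map_subtype_le _) fun e => h2 ?_, ?_, ?_⟩
  · rw [← map_subtype_inj, e, ← MonoidHom.range_eq_map, range_subtype]
  · have := N.le_normalizer_map T.subtype
    rwa [normalizer_eq_top, ← MonoidHom.range_eq_map, range_subtype] at this
  · exact h3.imp (fun h => map_subgroupOf_eq_of_le hA ▸ map_mono h)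
      (fun h => map_subgroupOf_eq_of_le hB ▸ map_mono h)

/-- the factoriser `AN ∩ BN` of a subgroup `N` is factorised -/
theorem Fac.factorizer {A B : Subgroup G} (h : Fac A B) (N : Subgroup G) :
    Fac (A.subgroupOf ((A ⊔ N) ⊓ (B ⊔ N))) (B.subgroupOf ((A ⊔ N) ⊓ (B ⊔ N))) := by
  rintro ⟨g, hg⟩
  obtain ⟨a, ha, b, hb, rfl⟩ := h g
  have hb' : b ∈ (A ⊔ N) ⊓ (B ⊔ N) :=
    ⟨(mul_mem_cancel_left (mem_sup_left ha)).1 hg.1, mem_sup_left hb⟩
  exact ⟨⟨a, (mul_mem_cancel_right hb').1 hg⟩, ha, ⟨b, hb'⟩, hb, rfl⟩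

theorem fac_of_sup_normal {A N : Subgroup G} [N.Normal] (h : A ⊔ N = ⊤) : Fac A N :=
  (Permutes.of_le_normalizer le_normalizer_of_normal).fac_of_sup_eq_top h

theorem Fac.exists_sylow_Op [Finite G] {A B : Subgroup G} [Group.IsNilpotent A]
    [Group.IsNilpotent B] (h : Fac A B) (p : ℕ) [Fact p.Prime] :
    ∃ R : Sylow p G, ((R : Subgroup G) : Set G) = (Op p A : Set G) * (Op p B : Set G) := by
  obtain ⟨P, Q, R, hR⟩ := h.exists_sylow p
  exact ⟨R, by rwa [map_sylow_eq_Op, map_sylow_eq_Op] at hR⟩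

/-- The Kegel–Wielandt theorem -/
theorem kegel_wielandt (G : Type*) [Group G] [Finite G] : ∀ A B : Subgroup G,
    Group.IsNilpotent A → Group.IsNilpotent B → Fac A B → Group.IsSolvable G := by
  refine card_induction (P := fun G _ _ => ∀ A B : Subgroup G,
    Group.IsNilpotent A → Group.IsNilpotent B → Fac A B → Group.IsSolvable G)
    (fun G _ _ ih => ?_) G
  intro A B hA hB h
  by_contra hns
  have hind : ∀ L : Subgroup G, L ≠ ⊤ → ∀ X Y : Subgroup L, Group.IsNilpotent X →
      Group.IsNilpotent Y → Fac X Y → Group.IsSolvable L :=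
    fun L hL => ih L (card_subgroup_lt hL)
  have hq : ∀ (N : Subgroup G) [N.Normal], N ≠ ⊥ → Group.IsSolvable (G ⧸ N) := fun N _ hN =>
    ih _ (card_quotient_lt hN) _ _ (isNilpotent_map _ A) (isNilpotent_map _ B)
      (h.map (QuotientGroup.mk'_surjective N))
  have hN : ∀ N : Subgroup G, N.Normal → N ≠ ⊥ → ¬ Group.IsSolvable N := fun N _ hN _ =>
    have := hq N hN
    hns (isSolvable_of_normal_of_quotient N)
  have hnt : Nontrivial G := by
    by_contra hcon
    have := not_nontrivial_iff_subsingleton.1 hcon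
    exact hns inferInstance
  by_cases hcop : (Nat.card A).Coprime (Nat.card B)
  · refine Cfg.false ⟨hA, hB, hcop, h, ⟨fun N hNn => ?_⟩, hns, hind⟩
    by_contra hcon
    push Not at hcon
    refine hN N hNn hcon.1 (hind N hcon.2 _ _ (H3.isNilpotent_subgroupOf hA N)
      (H3.isNilpotent_subgroupOf hB N) (factorization_of_coprime_index ?_))
    have key : ∀ {A B : Subgroup G}, Fac A B → (A.subgroupOf N).index ∣ Nat.card B := by
      intro A B h
      have h1 := (SnIn.of_isSubnormal hNn.isSubnormal).relIndex_dvd A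
      rw [relIndex_top_right, index_eq_relIndex_of_factorization h.symm] at h1
      exact h1.trans (relIndex_dvd_card _ _)
    exact Nat.Coprime.coprime_dvd_left (key h)
      (Nat.Coprime.coprime_dvd_right (key h.symm) hcop.symm)
  obtain ⟨p, hp, hpA, hpB⟩ := Nat.Prime.not_coprime_iff_dvd.1 hcop
  have : Fact p.Prime := ⟨hp⟩
  obtain ⟨N, hNn, hN0, hmin⟩ := H3.exists_minimal_normal G
  have hX : (A ⊔ N) ⊓ (B ⊔ N) = ⊤ := by
    by_contra hne
    have := hind _ hne _ _ (H3.isNilpotent_subgroupOf hA _) (H3.isNilpotent_subgroupOf hB _)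
      (h.factorizer N)
    exact hN N hNn hN0 (isSolvable_of_le (le_inf le_sup_right le_sup_right :
      N ≤ (A ⊔ N) ⊓ (B ⊔ N)))
  have key1 : ∀ {A : Subgroup G}, Group.IsNilpotent A → A ⊔ N = ⊤ → ∀ U : Subgroup G,
      IsPGroup p U → U ≤ Op p A ⊔ N := by
    intro A hA hAN U hU
    refine le_of_isPGroup_of_not_dvd_relIndex hp hU le_top ?_ ?_
    · rw [← hAN]
      exact sup_le (le_normalizer_Op.trans normalizer_le_normalizer_sup_normal)
        (le_sup_right.trans le_normalizer)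
    · rw [relIndex_top_right, index_eq_relIndex_of_factorization
        ((fac_of_sup_normal hAN).mono le_rfl le_sup_right)]
      exact fun hd => not_dvd_relIndex_Op hp (hd.trans (relIndex_dvd_of_le_left _ le_sup_left))
  have key2 : ∀ {A : Subgroup G}, Group.IsNilpotent A → A ⊔ N = ⊤ → p ∣ Nat.card A →
      ∀ K : Subgroup G, N ≤ normalizer (K : Set G) → Op p A ≤ K → N ≤ K := by
    intro A hA hAN hpA K hNK hK
    set J := normalClosure (Op p A : Set G)
    have hJ0 : J ≠ ⊥ := fun e => Op_ne_bot_of_dvd hp hpA (le_bot_iff.1 (e ▸ le_normalClosure))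
    have hJK : J ≤ K := by
      refine (closure_le _).2 fun x hx => ?_
      obtain ⟨y, hy, hx⟩ := Group.mem_conjugatesOfSet_iff.1 hx
      obtain ⟨g, rfl⟩ := isConj_iff.1 hx
      obtain ⟨n, hn, a, ha, rfl⟩ := (fac_of_sup_normal hAN).symm g
      have : n * a * y * (n * a)⁻¹ = n * (a * y * a⁻¹) * n⁻¹ := by group
      rw [this]
      exact (mem_normalizer_iff.1 (hNK hn) _).1
        (hK ((mem_normalizer_iff.1 (le_normalizer_Op ha) _).1 hy))
    rcases hmin (J ⊓ N) inferInstance inf_le_right with h1 | h1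
    · have := hq J hJ0
      refine absurd (Group.isSolvable_of_isSolvable_injective
        (f := (QuotientGroup.mk' J).comp N.subtype) ?_) (hN N hNn hN0)
      rw [injective_iff_map_eq_one]
      intro n hn
      have : (n : G) ∈ J ⊓ N := ⟨(QuotientGroup.eq_one_iff _).1 hn, n.2⟩
      rw [h1] at this
      exact Subtype.ext this
    · exact (inf_eq_right.1 h1).trans hJK
  have hAN : A ⊔ N = ⊤ := top_le_iff.1 (hX ▸ inf_le_left)
  have hBN : B ⊔ N = ⊤ := top_le_iff.1 (hX ▸ inf_le_right)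
  obtain ⟨K, hK1, hK2, hK3⟩ := kegel_in (T := Op p A ⊔ N) (A := Op p A) (B := Op p B)
    le_sup_left (key1 hA hAN _ Op_isPGroup)
    (fun x _ => by
      have : Group.IsNilpotent (MulAut.conj x • B : Subgroup G) := isNilpotent_map _ B
      obtain ⟨R, hR⟩ := (h.conj_right x).exists_sylow_Op p
      rw [← Op_conj_smul]
      exact Permutes.of_coe_eq hR)
    (fun e => by
      obtain ⟨R, hR⟩ := h.exists_sylow_Op p
      have h1 : N ≤ R := by rw [eq_sup_of_coe_eq_mul hR, e]; exact le_sup_right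
      have := (R.isPGroup'.to_le h1).isNilpotent
      exact hN N hNn hN0 inferInstance)
  refine hK1.not_ge ?_
  rcases hK3 with h1 | h1
  · exact sup_le h1 (key2 hA hAN hpA K (le_sup_right.trans hK2) h1)
  · have h2 := key2 hB hBN hpB K (le_sup_right.trans hK2) h1
    exact sup_le ((key1 hB hBN _ Op_isPGroup).trans (sup_le h1 h2)) h2

end Cfsg.Agent.H1
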