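import Mathlib

/-! Four-groups through an involution of `PSL₂(F)` in characteristic two. -/

set_option autoImplicit false

namespace Cfsg.Agent.H1.LpFour

open Matrix

section
variable {F : Type} [Field F]

theorem comm_form (h2 : (2 : F) = 0) (Z S : Matrix (Fin 2) (Fin 2) F) (z2 : Z * Z = 1) (z1 : Z ≠ 1)
    (s2 : S * S = 1) (c : Z * S = S * Z) : ∃ u : F, S = 1 + u • (Z - 1) := by
  have e := fun i j => congrFun (congrFun c i) j
  have ez := fun i j => congrFun (congrFun z2 i) j
  have es := fun i j => congrFun (congrFun s2 i) j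
  have c00 := e 0 0; have c01 := e 0 1; have c10 := e 1 0; have c11 := e 1 1
  have z00 := ez 0 0; have z01 := ez 0 1; have z10 := ez 1 0; have z11 := ez 1 1
  have s00 := es 0 0; have s01 := es 0 1; have s10 := es 1 0; have s11 := es 1 1
  simp only [Matrix.mul_apply, Fin.sum_univ_two, Matrix.one_apply_eq, ne_eq, zero_ne_one,
    one_ne_zero, not_false_eq_true, Matrix.one_apply_ne] at c00 c01 c10 c11 z00 z01 z10 z11 s00 s01 s10 s11
  have sq : ∀ x y : F, x * x = y * y → x = y := fun x y h => by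
    have : (x - y) * (x - y) = 0 := by linear_combination h + (y * y - x * y) * h2
    exact sub_eq_zero.1 (mul_self_eq_zero.1 this)
  have zd : Z 0 0 = Z 1 1 := sq _ _ (by linear_combination z00 - z11)
  have sd : S 0 0 = S 1 1 := sq _ _ (by linear_combination s00 - s11)
  by_cases hb : Z 0 1 = 0
  · by_cases hc : Z 1 0 = 0
    · exfalso
      apply z1
      have : Z 0 0 = 1 := sq _ _ (by rw [hb] at z00; linear_combination z00)
      ext i j
      fin_cases i <;> fin_cases j <;> simp [← zd, this, hb, hc]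
    · have a1 : Z 0 0 = 1 := sq _ _ (by rw [hb] at z00; linear_combination z00)
      have b0 : S 0 1 = 0 := by
        rw [hb] at c00
        exact (mul_eq_zero.1 (by linear_combination -c00 : S 0 1 * Z 1 0 = 0)).resolve_right hc
      have a2 : S 0 0 = 1 := sq _ _ (by rw [b0] at s00; linear_combination s00)
      refine ⟨S 1 0 / Z 1 0, ?_⟩
      ext i j
      fin_cases i <;> fin_cases j <;> simp [← zd, ← sd, a1, a2, hb, b0, hc]
  · refine ⟨S 0 1 / Z 0 1, ?_⟩
    have k1 : S 1 0 = S 0 1 / Z 0 1 * Z 1 0 := by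
      field_simp
      linear_combination c00
    have k2 : S 0 0 = 1 + S 0 1 / Z 0 1 * (Z 0 0 - 1) := by
      apply sq
      rw [k1] at s00
      generalize hu : S 0 1 / Z 0 1 = u at *
      have : S 0 1 = u * Z 0 1 := by rw [← hu]; field_simp
      rw [this] at s00
      linear_combination s00 - u * u * z00 + (u * u * Z 0 0 - u * Z 0 0 + u - u * u) * h2
    ext i j
    fin_cases i <;> fin_cases j <;> simp [← zd, ← sd, hb, ← k1, ← k2]

theorem root (Z A B : Matrix (Fin 2) (Fin 2) F) (u : F) (z2 : Z * Z = 1) (z1 : Z ≠ 1) (h2 : (2 : F) = 0)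
    (ab : A * B = 1) (h1 : A * Z * B = 1 + u • (Z - 1))
    (h3 : A * (1 + u • (Z - 1)) * B = Z * (1 + u • (Z - 1))) : u * u = 1 + u := by
  obtain ⟨N, rfl⟩ : ∃ N, Z = N + 1 := ⟨Z - 1, by simp⟩
  have n0 : N ≠ 0 := fun e => z1 (by simp [e])
  have t2 : N + N = 0 := by rw [← two_smul F, h2, zero_smul]
  have nn : N * N = 0 := by
    have : (N + 1) * (N + 1) = N * N + (N + N) + 1 := by noncomm_ring
    rw [this, t2, add_zero] at z2
    simpa using z2
  simp only [add_sub_cancel_right] at h1 h3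
  have e1 : A * N * B = u • N := by
    have : A * (N + 1) * B = 1 + A * N * B := by rw [mul_add, add_mul, mul_one, ab, add_comm]
    rw [this] at h1
    exact add_left_cancel h1
  have e2 : A * (1 + u • N) * B = 1 + (u * u) • N := by
    rw [mul_add, add_mul, mul_one, ab, mul_smul_comm, smul_mul_assoc, e1, smul_smul]
  have e3 : (N + 1) * (1 + u • N) = 1 + (1 + u) • N := by
    rw [add_mul, mul_add, mul_smul_comm, nn, smul_zero, add_zero, one_mul, mul_one, add_smul, one_smul]
    abel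
  rw [e2, e3] at h3
  have := add_left_cancel h3
  rw [← sub_eq_zero, ← sub_smul, smul_eq_zero] at this
  exact sub_eq_zero.1 (this.resolve_right n0)

theorem four_sl (h2 : (2 : F) = 0) (z s t a b : SpecialLinearGroup (Fin 2) F) (z2 : z * z = 1)
    (z1 : z ≠ 1) (s2 : s * s = 1) (t2 : t * t = 1) (cs : z * s = s * z) (ct : z * t = t * z)
    (a1 : a * z * a⁻¹ = s) (a2 : a * s * a⁻¹ = z * s) (b1 : b * z * b⁻¹ = t)
    (b2 : b * t * b⁻¹ = z * t) : t = s ∨ t = z * s := by
  have v := fun {x y : SpecialLinearGroup (Fin 2) F} (h : x = y) => congrArg Subtype.val h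
  have Z2 : z.1 * z.1 = 1 := v z2
  have Z1 : z.1 ≠ 1 := fun e => z1 (Subtype.ext e)
  obtain ⟨u, hu⟩ := comm_form h2 z.1 s.1 Z2 Z1 (v s2) (v cs)
  obtain ⟨w, hw⟩ := comm_form h2 z.1 t.1 Z2 Z1 (v t2) (v ct)
  have r1 := root z.1 a.1 (a⁻¹).1 u Z2 Z1 h2 (v (mul_inv_cancel a)) (hu ▸ v a1) (hu ▸ v a2)
  have r2 := root z.1 b.1 (b⁻¹).1 w Z2 Z1 h2 (v (mul_inv_cancel b)) (hw ▸ v b1) (hw ▸ v b2)
  have : (w - u) * (w - (1 + u)) = 0 := by linear_combination r2 + r1 + (1 + u - w * u) * h2
  rcases mul_eq_zero.1 this with e | e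
  · exact Or.inl (Subtype.ext (by rw [hu, hw, sub_eq_zero.1 e]))
  · refine Or.inr (Subtype.ext ?_)
    change t.1 = z.1 * s.1
    rw [hu, hw, sub_eq_zero.1 e, mul_add, mul_one, mul_smul_comm, mul_sub, Z2, mul_one, add_smul,
      one_smul]
    have : (1 : Matrix (Fin 2) (Fin 2) F) - z.1 = z.1 - 1 := by
      have t2 : z.1 - 1 + (z.1 - 1) = 0 := by rw [← two_smul F, h2, zero_smul]
      rw [← neg_sub, neg_eq_iff_add_eq_zero, t2]
    rw [this]
    abel

theorem mk_inj (h2 : (2 : F) = 0) : Function.Injective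
    (QuotientGroup.mk' (Subgroup.center (SpecialLinearGroup (Fin 2) F))) := by
  rw [injective_iff_map_eq_one]
  intro g hg
  obtain ⟨r, hr, e⟩ := Matrix.SpecialLinearGroup.mem_center_iff.1 ((QuotientGroup.eq_one_iff g).1 hg)
  have : (r - 1) * (r - 1) = 0 := by
    rw [Fintype.card_fin] at hr
    linear_combination hr + (1 - r) * h2
  rw [sub_eq_zero.1 (mul_self_eq_zero.1 this), map_one] at e
  exact Subtype.ext e.symm

theorem four (h2 : (2 : F) = 0) {M : Type*} [Group M]
    (e : M ≃* ProjectiveSpecialLinearGroup (Fin 2) F) (z s t a b : M) (z2 : z * z = 1)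
    (z1 : z ≠ 1) (s2 : s * s = 1) (t2 : t * t = 1) (cs : z * s = s * z) (ct : z * t = t * z)
    (a1 : a * z * a⁻¹ = s) (a2 : a * s * a⁻¹ = z * s) (b1 : b * z * b⁻¹ = t)
    (b2 : b * t * b⁻¹ = z * t) : t = s ∨ t = z * s := by
  let f : M ≃* SpecialLinearGroup (Fin 2) F := e.trans (MulEquiv.ofBijective _
    ⟨mk_inj h2, QuotientGroup.mk'_surjective _⟩).symm
  have := four_sl h2 (f z) (f s) (f t) (f a) (f b) (by rw [← map_mul, z2, map_one])
    (by simpa using z1) (by rw [← map_mul, s2, map_one]) (by rw [← map_mul, t2, map_one])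
    (by rw [← map_mul, cs, map_mul]) (by rw [← map_mul, ct, map_mul])
    (by rw [← map_inv, ← map_mul, ← map_mul, a1]) (by rw [← map_inv, ← map_mul, ← map_mul, a2, map_mul])
    (by rw [← map_inv, ← map_mul, ← map_mul, b1]) (by rw [← map_inv, ← map_mul, ← map_mul, b2, map_mul])
  rw [← map_mul] at this
  exact this.imp (fun h => f.injective h) (fun h => f.injective h)

end

end Cfsg.Agent.H1.LpFour
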