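import Mathlib
import Cfsg.Agent.H4.HallHigman
import Cfsg.Agent.H82.LemA
import Cfsg.Agent.H10.Inverted
import Cfsg.Agent.S0016
import Cfsg.Agent.H52.Rel

/-! Faithful `F₂`-modules for `Q S`, `S` a 2-group with a unique involution acting nontrivially on
the odd `q`-group `Q`: the dimension is at least `2 log₂ |S|`. -/

set_option autoImplicit false

namespace Cfsg.Agent.H1.SEM

open Subgroup Module

theorem le_of_pow_dvd {q m M c : ℕ} (h : q ^ m ∣ M) (hc : ¬ q ^ (c + 1) ∣ M) : m ≤ c := by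
  by_contra hm
  exact hc ((pow_dvd_pow q (by omega)).trans h)

theorem num4 {q a : ℕ} (hq : q.Prime) (ha : 1 ≤ a) (h : q ^ a ∣ 3 * 7) : ¬ 4 ∣ q ^ a - 1 := by
  have h1 : q ∣ 3 * 7 := (dvd_pow_self q (by omega)).trans h
  rcases (hq.dvd_mul).1 h1 with h2 | h2 <;>
  · obtain rfl := (Nat.prime_dvd_prime_iff_eq hq (by norm_num)).1 h2
    have := le_of_pow_dvd (c := 1) h (by norm_num)
    obtain rfl : a = 1 := by omega
    norm_num

theorem num8 {q a m : ℕ} (hq : q.Prime) (ha : 1 ≤ a) (ham : a ≤ m) (h : q ^ m ∣ 3 * 3 * 5 * 7 * 31)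
    (h8 : 8 ∣ q ^ a - 1) : q ^ a = 9 ∧ q ^ m = 9 := by
  have h1 : q ∣ 3 * 3 * 5 * 7 * 31 := (dvd_pow_self q (by omega)).trans h
  simp only [hq.dvd_mul, or_self] at h1
  rcases h1 with ((h2 | h2) | h2) | h2 <;>
    obtain rfl := (Nat.prime_dvd_prime_iff_eq hq (by norm_num)).1 h2
  · have := le_of_pow_dvd (c := 2) h (by norm_num)
    interval_cases m <;> interval_cases a <;> simp_all
  all_goals
    have := le_of_pow_dvd (c := 1) h (by norm_num)
    obtain rfl : a = 1 := by omega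
    norm_num at h8

theorem num16 {q a m : ℕ} (hq : q.Prime) (ha : 1 ≤ a) (ham : a ≤ m)
    (h : q ^ m ∣ 3 * 3 * 3 * 3 * 5 * 7 * 7 * 31 * 127) (h8 : 16 ∣ q ^ a - 1) : a = m := by
  have h1 : q ∣ 3 * 3 * 3 * 3 * 5 * 7 * 7 * 31 * 127 := (dvd_pow_self q (by omega)).trans h
  simp only [hq.dvd_mul, or_self, or_assoc] at h1
  rcases h1 with h2 | h2 | h2 | h2 | h2 <;>
    obtain rfl := (Nat.prime_dvd_prime_iff_eq hq (by norm_num)).1 h2
  · have := le_of_pow_dvd (c := 4) h (by norm_num)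
    interval_cases m <;> interval_cases a <;> simp_all
  · have := le_of_pow_dvd (c := 1) h (by norm_num)
    omega
  · have := le_of_pow_dvd (c := 2) h (by norm_num)
    interval_cases m <;> interval_cases a <;> simp_all
  all_goals
    have := le_of_pow_dvd (c := 1) h (by norm_num)
    omega

theorem gl1 {d : ℕ} (hd : d ≤ 1) : ∏ i : Fin d, (2 ^ d - 2 ^ (i : ℕ)) ∣ 2 ^ 0 * 1 := by
  interval_cases d <;> decide

theorem gl3 {d : ℕ} (hd : d ≤ 3) : ∏ i : Fin d, (2 ^ d - 2 ^ (i : ℕ)) ∣ 2 ^ 3 * (3 * 7) := by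
  interval_cases d <;> decide

theorem gl5 {d : ℕ} (hd : d ≤ 5) :
    ∏ i : Fin d, (2 ^ d - 2 ^ (i : ℕ)) ∣ 2 ^ 10 * (3 * 3 * 5 * 7 * 31) := by
  interval_cases d <;> decide

theorem gl7 {d : ℕ} (hd : d ≤ 7) : ∏ i : Fin d, (2 ^ d - 2 ^ (i : ℕ)) ∣
    2 ^ 21 * (3 * 3 * 3 * 3 * 5 * 7 * 7 * 31 * 127) := by
  interval_cases d <;> decide

variable {G : Type*} [Group G] [Finite G] {V : Type*} [AddCommGroup V] [Module (ZMod 2) V]
  [Module.Finite (ZMod 2) V] (ρ : Representation (ZMod 2) G V)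

omit [Finite G] in
theorem card_dvd_gl (hρ : Function.Injective ρ) : Nat.card G ∣
    ∏ i : Fin (finrank (ZMod 2) V), (2 ^ finrank (ZMod 2) V - 2 ^ (i : ℕ)) := by
  let b := Module.finBasis (ZMod 2) V
  let φ : G →* Matrix (Fin (finrank (ZMod 2) V)) (Fin (finrank (ZMod 2) V)) (ZMod 2) :=
    (LinearMap.toMatrixAlgEquiv b).toMulEquiv.toMonoidHom.comp ρ
  have hφ : Function.Injective φ.toHomUnits := fun x y h =>
    hρ ((LinearMap.toMatrixAlgEquiv b).injective (congrArg Units.val h))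
  have := card_dvd_of_injective _ hφ
  have h2 := Matrix.card_GL_field (𝔽 := ZMod 2) (finrank (ZMod 2) V)
  rw [ZMod.card] at h2
  exact h2 ▸ this

/-- the action on the vectors -/
abbrev act : DistribMulAction G V := DistribMulAction.compHom V (ρ : G →* Module.End (ZMod 2) V)

omit [Finite G] in
theorem finite_V : Finite V := Module.finite_of_finite (ZMod 2)

omit [Finite G] in
theorem card_V : Nat.card V = 2 ^ finrank (ZMod 2) V := by
  rw [Module.natCard_eq_pow_finrank (K := ZMod 2), Nat.card_zmod]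

omit [Finite G] in
theorem isPGroup_V : IsPGroup 2 (Multiplicative V) :=
  IsPGroup.of_card (n := finrank (ZMod 2) V) (card_V (V := V))

omit [Finite G] in
theorem index_fixS (s : G) : letI := act ρ
    (H82.fixS V (zpowers s)).index = 2 ^ finrank (ZMod 2) (LinearMap.range (ρ s - 1)) := by
  let _ := act ρ
  have h1 : H82.fixS V (zpowers s) = (ρ s - 1).toAddMonoidHom.ker := by
    ext m
    rw [H82.mem_fixS_zpowers, AddMonoidHom.mem_ker]
    exact sub_eq_zero.symm
  rw [h1, AddSubgroup.index_ker, ← card_V]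
  rfl

theorem nine (hρ : Function.Injective ρ) {Q : Subgroup G} (hQ : Nat.card Q = 9)
    (hc : ∀ x ∈ Q, ∀ y ∈ Q, x ≠ 1 → y ≠ 1 → ∃ g, g * x * g⁻¹ = y) : 6 ≤ finrank (ZMod 2) V := by
  classical
  let _ := act ρ
  have := finite_V (V := V)
  let _ := Fintype.ofFinite Q
  let _ : ∀ g : Q, Fintype (MulAction.fixedBy V g) := fun _ => Fintype.ofFinite _
  let _ := Fintype.ofFinite (Quotient (MulAction.orbitRel Q V))
  have hB := MulAction.sum_card_fixedBy_eq_card_orbits_mul_card_group Q V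
  have hQ' : Fintype.card Q = 9 := by rw [← Nat.card_eq_fintype_card, hQ]
  obtain ⟨x, hx⟩ : ∃ x : Q, x ≠ 1 := by
    have : Nontrivial Q := Fintype.one_lt_card_iff_nontrivial.1 (by omega)
    exact exists_ne 1
  have hfix : ∀ y : Q, Fintype.card (MulAction.fixedBy V y) =
      Nat.card (H82.fixS V (zpowers (y : G))) := fun y => by
    rw [← Nat.card_eq_fintype_card]
    exact Nat.card_congr (Equiv.subtypeEquivRight fun m =>
      (H82.mem_fixS_zpowers (g := (y : G)) (m := m)).symm)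
  have h1 : ∀ y ∈ Finset.univ.erase (1 : Q), Fintype.card (MulAction.fixedBy V y) =
      Nat.card (H82.fixS V (zpowers (x : G))) := by
    intro y hy
    obtain ⟨g, hg⟩ := hc x x.2 y y.2 (fun h => hx (Subtype.ext h))
      (fun h => Finset.ne_of_mem_erase hy (Subtype.ext h))
    rw [hfix, ← H82.card_fixS_cj (zpowers (x : G)) g, ← hg]
    congr 3
    rw [H83.cj, MonoidHom.map_zpowers]; rfl
  rw [← Finset.add_sum_erase _ _ (Finset.mem_univ 1), Finset.sum_congr rfl h1, Finset.sum_const,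
    Finset.card_erase_of_mem (Finset.mem_univ _), Finset.card_univ, hQ', hfix] at hB
  have h2 : Nat.card (H82.fixS V (zpowers ((1 : Q) : G))) = 2 ^ finrank (ZMod 2) V := by
    rw [← card_V]
    have : H82.fixS V (zpowers ((1 : Q) : G)) = ⊤ := by
      ext m; rw [H82.mem_fixS_zpowers]; simp
    rw [this, AddSubgroup.card_top]
  have h3 : Nat.card (H82.fixS V (zpowers (x : G))) ∣ 2 ^ finrank (ZMod 2) V :=
    card_V (V := V) ▸ AddSubgroup.card_addSubgroup_dvd_card _
  obtain ⟨j, hj, hj'⟩ := (Nat.dvd_prime_pow Nat.prime_two).1 h3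
  have h4 : j ≠ finrank (ZMod 2) V := by
    intro h
    rw [h, ← card_V, AddSubgroup.card_eq_iff_eq_top] at hj'
    apply hx
    refine Subtype.ext (hρ ?_)
    rw [OneMemClass.coe_one, map_one]
    exact LinearMap.ext fun m => H82.mem_fixS_zpowers.1 (hj' ▸ AddSubgroup.mem_top m)
  rw [h2, hj'] at hB
  generalize finrank (ZMod 2) V = d at *
  by_contra hd
  have hd5 : d ≤ 5 := by omega
  interval_cases d <;> interval_cases j <;> simp at hB h4 <;> omega

theorem exists_pow_eq {S : Subgroup G} (hS : IsPGroup 2 S) {t : G}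
    (hu : ∀ u ∈ S, orderOf u = 2 → u = t) {s : G} (hs : s ∈ S) (hs1 : s ≠ 1) : t ∈ zpowers s := by
  obtain ⟨u, hu1, hu2⟩ := H52.exists_orderOf_eq_prime_of_ne_bot (N := zpowers s)
    (hS.to_le (zpowers_le.2 hs)) (by simpa using hs1)
  exact hu u (zpowers_le.2 hs hu1) hu2 ▸ hu1

theorem exists_order {S : Subgroup G} (hS : IsPGroup 2 S) {t : G}
    (hu : ∀ u ∈ S, orderOf u = 2 → u = t) {k : ℕ} (hk : Nat.card S = 2 ^ (k + 1)) :
    ∃ x ∈ S, orderOf x = 2 ^ k := by
  have h := S0016.result (G := S) 2 hS fun H K hH hK => by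
    have key : ∀ H : Subgroup S, Nat.card H = 2 → ∀ y : S, y ∈ H ↔ y = 1 ∨ (y : G) = t := by
      intro H hH
      have h1 : ∀ y ∈ H, y ≠ 1 → (y : G) = t := fun y hy hy1 => hu y y.2 (by
        rw [Subgroup.orderOf_coe]
        have h2 : orderOf y ∣ 2 := hH ▸ orderOf_dvd_natCard H hy
        rcases (Nat.dvd_prime Nat.prime_two).1 h2 with h3 | h3
        · exact absurd (orderOf_eq_one_iff.1 h3) hy1
        · exact h3)
      intro y
      refine ⟨fun hy => or_iff_not_imp_left.2 (h1 y hy), ?_⟩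
      rintro (rfl | hy)
      · exact one_mem _
      · have : H ≠ ⊥ := by rintro rfl; simp at hH
        obtain ⟨⟨z, hz⟩, hz1⟩ := ne_bot_iff_exists_ne_one.1 this
        have := h1 z hz fun h => hz1 (Subtype.ext h)
        rwa [show y = z from Subtype.ext (hy.trans this.symm)]
    ext y; rw [key H hH, key K hK]
  rcases h with h | ⟨-, n, ⟨e⟩⟩
  · obtain ⟨g, hg⟩ := IsCyclic.exists_ofOrder_eq_natCard (α := S)
    refine ⟨(g ^ 2 : S), (g ^ 2).2, ?_⟩
    rw [Subgroup.orderOf_coe, orderOf_pow' _ two_ne_zero, hg, hk, pow_succ, Nat.gcd_mul_left_left]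
    simp
  · have h1 := Nat.card_congr e.toEquiv
    have : NeZero (2 ^ n) := ⟨by positivity⟩
    rw [hk, Nat.card_eq_fintype_card, QuaternionGroup.card] at h1
    refine ⟨(e.symm (QuaternionGroup.a 1) : S), (e.symm _).2, ?_⟩
    rw [Subgroup.orderOf_coe, MulEquiv.orderOf_eq, QuaternionGroup.orderOf_a_one]
    rw [pow_succ] at h1
    omega

theorem rank_one (hρ : Function.Injective ρ) {S Q : Subgroup G} (hS : IsPGroup 2 S) {t : G}
    (htS : t ∈ S) (ht : orderOf t = 2) (hu : ∀ u ∈ S, orderOf u = 2 → u = t) {q : ℕ}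
    [hq : Fact q.Prime] (hq2 : 2 ≠ q) (hQ : IsPGroup q Q) (hSQ : S ≤ normalizer (Q : Set G))
    (hnt : ¬ Q ≤ centralizer ({t} : Set G)) {k : ℕ} (hk : Nat.card S = 2 ^ k) :
    2 * k ≤ finrank (ZMod 2) V := by
  obtain ⟨m, hm⟩ := IsPGroup.iff_card.1 hQ
  have hodd : Odd (Nat.card Q) := hm ▸ (hq.out.odd_of_ne_two hq2.symm).pow
  have htt : t * t = 1 := by rw [← sq, ← ht]; exact pow_orderOf_eq_one t
  have hct : ∀ s ∈ S, s * t = t * s := fun s hs => by
    have := hu (s * t * s⁻¹) (mul_mem (mul_mem hs htS) (inv_mem hs)) (by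
      rw [← ht]; exact (MulAut.conj s).orderOf_eq t)
    rwa [mul_inv_eq_iff_eq_mul] at this
  have hI := H10.relIndex_centralizer_eq_card_inverted hodd htt
    fun x hx => (mem_normalizer_iff.1 (hSQ htS) x).1 hx
  obtain ⟨a, ham, ha⟩ := (Nat.dvd_prime_pow hq.out).1
    (hm ▸ relIndex_dvd_card (centralizer ({t} : Set G)) Q)
  have ha1 : 1 ≤ a := by
    by_contra h
    obtain rfl : a = 0 := by omega
    exact hnt (relIndex_eq_one.1 ha)
  let X := {x : G // (x ∈ Q ∧ t * x * t⁻¹ = x⁻¹) ∧ x ≠ 1}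
  let _ : MulAction S X :=
    { smul := fun s x => ⟨s * x * (s : G)⁻¹, ⟨(mem_normalizer_iff.1 (hSQ s.2) _).1 x.2.1.1, by
        have h1 := hct s s.2
        have h2 := x.2.1.2
        calc t * (s * x * (s : G)⁻¹) * t⁻¹ = (t * s) * x * (t * s)⁻¹ := by group
          _ = s * (t * x * t⁻¹) * (s : G)⁻¹ := by rw [← h1]; group
          _ = _ := by rw [h2]; group⟩, fun h => x.2.2 (by simpa using h)⟩
      one_smul := fun x => Subtype.ext (by change ((1 : S) : G) * x * ((1 : S) : G)⁻¹ = x; simp)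
      mul_smul := fun s s' x => Subtype.ext (by
        change ((s * s' : S) : G) * x * ((s * s' : S) : G)⁻¹ = s * (s' * x * (s' : G)⁻¹) * (s : G)⁻¹
        rw [Subgroup.coe_mul]; group) }
  have hst : ∀ x : X, MulAction.stabilizer S x = ⊥ := by
    intro x
    rw [eq_bot_iff]
    intro s hs
    by_contra hs1
    have h1 : (s : G) * x * (s : G)⁻¹ = x := congrArg Subtype.val hs
    have h2 : t ∈ centralizer ({(x : G)} : Set G) :=
      zpowers_le.2 (mem_centralizer_singleton_iff.2 (mul_inv_eq_iff_eq_mul.1 h1))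
        (exists_pow_eq hS hu s.2 fun h => hs1 (mem_bot.2 (Subtype.ext h)))
    have h3 := x.2.1.2
    rw [mem_centralizer_singleton_iff.1 h2, mul_inv_cancel_right] at h3
    have h4 : orderOf (x : G) ∣ 2 := orderOf_dvd_of_pow_eq_one (by
      rw [sq]; nth_rewrite 1 [h3]; exact inv_mul_cancel _)
    have h5 : orderOf (x : G) ∣ Nat.card Q := orderOf_dvd_natCard Q x.2.1.1
    exact x.2.2 (orderOf_eq_one_iff.1 (Nat.eq_one_of_dvd_coprimes
      (Nat.coprime_two_left.2 hodd) h4 h5))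
  have hX : Nat.card X = q ^ a - 1 := by
    rw [← ha, hI]
    have h1 : Nat.card X = ({x : G | x ∈ Q ∧ t * x * t⁻¹ = x⁻¹} \ {1}).ncard := rfl
    rw [h1, Set.ncard_sdiff_singleton_of_mem (by simp)]
    rfl
  have hdvd : 2 ^ k ∣ q ^ a - 1 := hX ▸ H82.dvd_card_of_dvd_index_stabilizer (G := S) _ fun x => by
    rw [hst, index_bot, hk]
  have hGL := (card_subgroup_dvd_card Q).trans (card_dvd_gl ρ hρ)
  rw [hm] at hGL
  have hcop : ∀ e M, q ^ m ∣ 2 ^ e * M → q ^ m ∣ M := fun e M h =>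
    (Nat.Coprime.pow m e ((Nat.coprime_primes hq.out Nat.prime_two).2 hq2.symm)).dvd_of_dvd_mul_left h
  have hHH : ∀ n, Nat.card S = 2 ^ (n + 2) → 2 ^ (n + 1) ≤ finrank (ZMod 2) V ∨
      (3 * 2 ^ n ≤ 2 * finrank (ZMod 2) V ∧ ¬ IsMulCommutative Q) := by
    intro n hn
    obtain ⟨x, hxS, hx⟩ := exists_order hS hu hn
    have hx1 : x ^ 2 ^ (n + 1) = 1 := hx ▸ pow_orderOf_eq_one x
    have hxt : x ^ 2 ^ n = t := hu _ (pow_mem hxS _) (by
      rw [orderOf_pow' _ (by positivity), hx, pow_succ, Nat.gcd_mul_right_left,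
        Nat.mul_div_cancel_left _ (by positivity)])
    have hnil : (ρ x - 1) ^ finrank (ZMod 2) V = 0 := H4.HH.pow_finrank_eq_zero (r := 2 ^ (n + 1))
      (by rw [H4.HH.sub_one_pow_char_pow (ZMod 2) 2, ← map_pow, hx1, map_one, sub_self])
    rcases H4.HH.theoremB_of_isPGroup ρ hq2 hQ hx1 (hSQ hxS) (by
      by_contra hcon
      push Not at hcon
      refine hnt fun y hy => mem_centralizer_singleton_iff.2 (hρ ?_)
      rw [map_mul, map_mul, ← hxt, hcon y hy]) _ hnil with h | ⟨j, e, m', h1, h2, h3, h4, h5⟩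
    · exact Or.inl h
    · refine Or.inr ⟨?_, h5⟩
      subst h1
      have he : 1 ≤ e := by
        by_contra h
        obtain rfl : e = 0 := by omega
        have := Nat.one_lt_pow (by omega : m' ≠ 0) hq.out.one_lt
        omega
      have h6 : 2 ≤ 2 ^ e := Nat.le_self_pow (by omega) 2
      have h7 : 3 * 2 ^ e ≤ 2 * (2 ^ (e + 1) - 1) := by rw [pow_succ]; omega
      calc 3 * 2 ^ (j + e) = 2 ^ j * (3 * 2 ^ e) := by ring
        _ ≤ 2 ^ j * (2 * (2 ^ (e + 1) - 1)) := Nat.mul_le_mul_left _ h7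
        _ = 2 * (2 ^ j * (2 ^ (e + 1) - 1)) := by ring
        _ ≤ _ := Nat.mul_le_mul_left _ h4
  have hall : a = m → ∀ x ∈ Q, t * x * t⁻¹ = x⁻¹ := by
    rintro rfl x hx
    have h1 : ({x : G | x ∈ Q ∧ t * x * t⁻¹ = x⁻¹}) = (Q : Set G) :=
      Set.eq_of_subset_of_ncard_le (fun x hx => hx.1) (by
        change Nat.card Q ≤ Nat.card {x : G // x ∈ Q ∧ t * x * t⁻¹ = x⁻¹}
        rw [← hI, ha, hm])
    have h2 : x ∈ ({x : G | x ∈ Q ∧ t * x * t⁻¹ = x⁻¹}) := h1 ▸ hx
    exact h2.2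
  by_contra hd
  rcases k with _ | _ | _ | _ | _ | k
  · omega
  · have h1 := Nat.dvd_one.1 (hcop _ _ (hGL.trans (gl1 (by omega))))
    have := Nat.one_lt_pow (by omega : m ≠ 0) hq.out.one_lt
    omega
  · exact num4 hq.out ha1 ((pow_dvd_pow q ham).trans (hcop _ _ (hGL.trans (gl3 (by omega))))) hdvd
  · obtain ⟨h1, h2⟩ := num8 hq.out ha1 ham (hcop _ _ (hGL.trans (gl5 (by omega)))) hdvd
    have h3 := hall (Nat.pow_right_injective hq.out.two_le (h1.trans h2.symm))
    refine hd (nine ρ hρ (hm.trans h2) fun x hx y hy hx1 hy1 => ?_)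
    let x' : X := ⟨x, ⟨hx, h3 x hx⟩, hx1⟩
    have h4 : MulAction.orbit S x' = Set.univ :=
      Set.eq_of_subset_of_ncard_le (Set.subset_univ _) (by
        rw [Set.ncard_univ, hX, h1, ← MulAction.index_stabilizer, hst, index_bot, hk]; norm_num)
    have h5 : (⟨y, ⟨hy, h3 y hy⟩, hy1⟩ : X) ∈ MulAction.orbit S x' := h4 ▸ Set.mem_univ _
    obtain ⟨s, hs⟩ := h5
    exact ⟨s, congrArg Subtype.val hs⟩
  · have h1 := hall (num16 hq.out ha1 ham (hcop _ _ (hGL.trans (gl7 (by omega)))) hdvd)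
    rcases hHH 2 hk with h | ⟨-, h⟩
    · omega
    · refine h ⟨⟨fun x y => Subtype.ext ?_⟩⟩
      have h2 := h1 _ (mul_mem x.2 y.2)
      have h3 : t * ((x : G) * y) * t⁻¹ = (t * x * t⁻¹) * (t * y * t⁻¹) := by group
      rw [h3, h1 x x.2, h1 y y.2, ← mul_inv_rev] at h2
      exact (inv_injective h2).symm
  · have h1 : 4 * (k + 5) ≤ 3 * 2 ^ (k + 3) := by
      have := Nat.lt_two_pow_self (n := k)
      rw [pow_add]; omega
    rcases hHH (k + 3) hk with h | ⟨h, -⟩
    · rw [pow_succ] at h; omega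
    · omega

end Cfsg.Agent.H1.SEM
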