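import Cfsg.Agent.H1.Count
import Cfsg.Agent.H8.SylowIn

/-!
Casolo's formula for the size of the subnormalizer of a `p`-subgroup.
-/

set_option autoImplicit false
open scoped Pointwise Classical

namespace Cfsg.Agent.H1

open Subgroup Finset

section Weight

variable {α : Type*} [Fintype α] [PartialOrder α]

theorem weight_unique (Y : α → Prop) {a b : α → ℚ}
    (h : ∀ x, Y x → ∑ y with Y y ∧ x ≤ y, a y = ∑ y with Y y ∧ x ≤ y, b y) (x : α) (hx : Y x) :
    a x = b x := by
  induction x using WellFoundedGT.induction with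
  | ind x ih =>
  have h1 := h x hx
  have hm : x ∈ univ.filter fun y => Y y ∧ x ≤ y := by simp [hx]
  rw [← add_sum_erase _ _ hm, ← add_sum_erase _ _ hm, sum_congr rfl fun y hy => ih y (by
    simp only [mem_erase, mem_filter] at hy
    exact lt_of_le_of_ne hy.2.2.2 hy.1.symm) (by
    simp only [mem_erase, mem_filter] at hy
    exact hy.2.2.1)] at h1
  exact add_right_cancel h1

theorem exists_weight (Y : α → Prop) :
    ∃ a : α → ℚ, ∀ x, Y x → ∑ y with Y y ∧ x ≤ y, a y = 1 := by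
  let T : (α → ℚ) →ₗ[ℚ] (α → ℚ) :=
    { toFun a x := if Y x then ∑ y with Y y ∧ x ≤ y, a y else a x
      map_add' a b := by ext x; by_cases h : Y x <;> simp [h, sum_add_distrib]
      map_smul' c a := by ext x; by_cases h : Y x <;> simp [h, mul_sum] }
  have hT : Function.Injective T := by
    intro a b e
    ext x
    by_cases hx : Y x
    · exact weight_unique Y (fun x hx => by simpa [T, hx] using congrFun e x) x hx
    · simpa [T, hx] using congrFun e x
  obtain ⟨a, ha⟩ := LinearMap.injective_iff_surjective.1 hT fun _ => 1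
  exact ⟨a, fun x hx => by simpa [T, hx] using congrFun ha x⟩

end Weight

variable {G : Type*} [Group G] {p : ℕ}

theorem isSubnormal_sup_zpowers_iff [Finite G] [Fact p.Prime] {H : Subgroup G} (hH : IsPGroup p H)
    (g : G) : (H.subgroupOf (H ⊔ zpowers g)).IsSubnormal ↔
      ∃ R : Subgroup G, (IsPGroup p R ∧ g ∈ normalizer (R : Set G)) ∧ H ≤ R := by
  constructor
  · intro h
    obtain ⟨N, h1, -, h2, h3⟩ := (SnIn.of_subgroupOf le_sup_left h).exists_normal_pGroup hH
    exact ⟨N, ⟨h3, h2 (mem_sup_right (mem_zpowers g))⟩, h1⟩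
  · rintro ⟨R, ⟨h1, h2⟩, h3⟩
    exact (((SnIn.of_isPGroup h1 h3).trans (SnIn.of_normal (T := R ⊔ zpowers g) le_sup_left
      (sup_le le_normalizer (zpowers_le.2 h2)))).of_le le_sup_left
      (sup_le_sup_right h3 _)).subgroupOf

theorem card_conj_smul_eq (L S : Subgroup G) {h : G} (hh : h ∈ L) :
    Nat.card {g : G // g ∈ L ∧ MulAut.conj g • S = MulAut.conj h • S} =
      Nat.card (L ⊓ normalizer ((MulAut.conj h • S : Subgroup G) : Set G) : Subgroup G) := by
  refine Nat.card_congr ⟨fun g => ⟨g.1 * h⁻¹, L.mul_mem g.2.1 (L.inv_mem hh), ?_⟩,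
    fun g => ⟨g.1 * h, L.mul_mem g.2.1 hh, ?_⟩, fun g => Subtype.ext (by simp),
    fun g => Subtype.ext (by simp)⟩
  · refine mem_normalizer_iff_conj_smul.2 ?_
    rw [conj_smul_conj_smul, inv_mul_cancel_right, g.2.2]
  · rw [← conj_smul_conj_smul]
    exact mem_normalizer_iff_conj_smul.1 g.2.2

theorem card_conj_sylow [Finite G] [Fintype (Subgroup G)] [Fact p.Prime] {L S : Subgroup G}
    (hS : H8.IsSylowIn p S L) (Q : Subgroup G → Prop) :
    Nat.card {g : G // g ∈ L ∧ Q (MulAut.conj g • S)} =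
      ∑ R with H8.IsSylowIn p R L ∧ Q R, Nat.card (L ⊓ normalizer (R : Set G) : Subgroup G) := by
  rw [card_eq_sum_fiber fun g : {g : G // g ∈ L ∧ Q (MulAut.conj g • S)} => MulAut.conj g.1 • S,
    sum_filter]
  refine sum_congr rfl fun R _ => ?_
  split_ifs with h
  · obtain ⟨x, hx, rfl⟩ := hS.exists_conj_eq h.1
    rw [← card_conj_smul_eq L S hx]
    exact Nat.card_congr ⟨fun g => ⟨g.1.1, g.1.2.1, g.2⟩,
      fun g => ⟨⟨g.1, g.2.1, by rw [g.2.2]; exact h.2⟩, g.2.2⟩, fun _ => rfl, fun _ => rfl⟩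
  · refine card_subtype_eq_zero ?_
    rintro ⟨g, hg, hQ⟩ rfl
    exact h ⟨hS.conj_smul_of_mem_normalizer (le_normalizer hg), hQ⟩

/-- the `p`-subgroups of `L` normalized by `g` -/
def InvP (p : ℕ) (L : Subgroup G) (g : G) (R : Subgroup G) : Prop :=
  IsPGroup p R ∧ R ≤ L ∧ g ∈ normalizer (R : Set G)

section

variable [Fintype G] [Fintype (Subgroup G)]

/-- the Möbius weight on the poset `InvP p L g` -/
noncomputable def snWeight (p : ℕ) (L : Subgroup G) (g : G) : Subgroup G → ℚ :=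
  (exists_weight (InvP p L g)).choose

omit [Fintype G] in
theorem sum_snWeight (L : Subgroup G) (g : G) (H : Subgroup G) :
    ∑ R with InvP p L g R ∧ H ≤ R, snWeight p L g R =
      if ∃ R, InvP p L g R ∧ H ≤ R then 1 else 0 := by
  split_ifs with h
  · obtain ⟨R₀, hR₀⟩ := exists_minimal_of_wellFoundedLT _ h
    rw [← (exists_weight (InvP p L g)).choose_spec R₀ hR₀.prop.1]
    refine sum_congr (filter_congr fun R _ => and_congr_right fun hR =>
      ⟨fun hH => ?_, fun h => hR₀.prop.2.trans h⟩) fun _ _ => rfl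
    exact (hR₀.le_of_le (y := R₀ ⊓ R) ⟨⟨hR.1.to_inf_right, inf_le_right.trans hR.2.1,
      inf_normalizer_le_normalizer_inf ⟨hR₀.prop.1.2.2, hR.2.2⟩⟩, le_inf hR₀.prop.2 hH⟩
      inf_le_left).trans inf_le_right
  · exact sum_eq_zero fun R hR => absurd ⟨R, (mem_filter.1 hR).2⟩ h

theorem snWeight_local [Fact p.Prime] {L R : Subgroup G} {g : G} (h : InvP p L g R) :
    snWeight p L g R = snWeight p (L ⊓ normalizer (R : Set G)) g R := by
  have hb := weight_unique (InvP p (L ⊓ normalizer (R : Set G)) g)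
    (a := fun T => ∑ Q with InvP p L g Q ∧ Q ⊓ normalizer (R : Set G) = T, snWeight p L g Q)
    (b := snWeight p (L ⊓ normalizer (R : Set G)) g) (fun T hT => by
      rw [sum_snWeight, if_pos ⟨T, hT, le_rfl⟩]
      have h1 := sum_snWeight (p := p) L g T
      rw [if_pos ⟨T, ⟨hT.1, hT.2.1.trans inf_le_left, hT.2.2⟩, le_rfl⟩] at h1
      rw [← h1, ← sum_fiberwise_of_maps_to (g := fun Q => Q ⊓ normalizer (R : Set G))
        (s := univ.filter fun Q => InvP p L g Q ∧ T ≤ Q)
        (t := univ.filter fun T' => InvP p (L ⊓ normalizer (R : Set G)) g T' ∧ T ≤ T')]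
      · refine sum_congr rfl fun T' hT' => sum_congr ?_ fun _ _ => rfl
        rw [filter_filter]
        refine filter_congr fun Q _ => ⟨fun hQ => ⟨⟨hQ.1, ?_⟩, hQ.2⟩, fun hQ => ⟨hQ.1.1, hQ.2⟩⟩
        exact (mem_filter.1 hT').2.2.trans (hQ.2.ge.trans inf_le_left)
      · intro Q hQ
        obtain ⟨-, hQ, hTQ⟩ := mem_filter.1 hQ
        exact mem_filter.2 ⟨mem_univ _, ⟨hQ.1.to_inf_left, inf_le_inf_right _ hQ.2.1,
          inf_normalizer_le_normalizer_inf ⟨hQ.2.2, le_normalizer h.2.2⟩⟩,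
          le_inf hTQ (hT.2.1.trans inf_le_right)⟩)
    R ⟨h.1, le_inf h.2.1 le_normalizer, h.2.2⟩
  rw [← hb]
  refine (sum_eq_single_of_mem R (mem_filter.2 ⟨mem_univ _, h, inf_eq_left.2 le_normalizer⟩)
    fun Q hQ hne => ?_).symm
  obtain ⟨-, hQ, e⟩ := mem_filter.1 hQ
  exact absurd e (H8.lt_inf_normalizer_of_lt hQ.1
    (lt_of_le_of_ne (e.ge.trans inf_le_left) hne.symm)).ne'

theorem card_subnormalizer_eq_sum (L H : Subgroup G) :
    (Nat.card {g : G // g ∈ L ∧ ∃ R, InvP p L g R ∧ H ≤ R} : ℚ) =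
      ∑ R ∈ univ.filter fun R : Subgroup G => (IsPGroup p R ∧ R ≤ L) ∧ H ≤ R,
        ∑ g with g ∈ L ⊓ normalizer (R : Set G), snWeight p L g R := by
  rw [sum_comm' (t' := univ.filter fun g => g ∈ L)
    (s' := fun g => univ.filter fun R => InvP p L g R ∧ H ≤ R) (by
      intro R g
      rw [mem_filter, mem_filter, mem_filter, mem_filter, Subgroup.mem_inf, InvP]
      simp only [mem_univ, true_and]
      tauto), sum_congr rfl fun g _ => sum_snWeight L g H, sum_boole, filter_filter,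
    Nat.card_eq_fintype_card, Fintype.card_subtype]

theorem sum_snWeight_eq [Fact p.Prime] (R : Subgroup G) (hR : IsPGroup p R) :
    ∀ L : Subgroup G, R ≤ L → ∑ g with g ∈ L ⊓ normalizer (R : Set G), snWeight p L g R =
      if H8.IsSylowIn p R L then (Nat.card (L ⊓ normalizer (R : Set G) : Subgroup G) : ℚ)
      else 0 := by
  induction R using WellFoundedGT.induction with
  | ind R ih =>
  intro L hL
  set N := L ⊓ normalizer (R : Set G) with hN
  have hRN : R ≤ N := le_inf hL le_normalizer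
  have h1 := card_subnormalizer_eq_sum (p := p) N R
  have hm : R ∈ univ.filter fun Q : Subgroup G => (IsPGroup p Q ∧ Q ≤ N) ∧ R ≤ Q :=
    mem_filter.2 ⟨mem_univ _, ⟨hR, hRN⟩, le_rfl⟩
  have e1 : ∑ g with g ∈ N, snWeight p N g R = ∑ g with g ∈ N, snWeight p L g R :=
    sum_congr rfl fun g hg => (snWeight_local ⟨hR, hL, (mem_filter.1 hg).2.2⟩).symm
  rw [card_subtype_congr (q := fun g => g ∈ N) fun g =>
    ⟨fun h => h.1, fun h => ⟨h, R, ⟨hR, hRN, h.2⟩, le_rfl⟩⟩, ← add_sum_erase _ _ hm,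
    inf_eq_left.2 (inf_le_right : N ≤ _), e1,
    sum_congr (s₁ := erase _ R) rfl fun Q hQ => ih Q
      (lt_of_le_of_ne (mem_filter.1 (mem_erase.1 hQ).2).2.2 (mem_erase.1 hQ).1.symm)
      (mem_filter.1 (mem_erase.1 hQ).2).2.1.1 N (mem_filter.1 (mem_erase.1 hQ).2).2.1.2] at h1
  split_ifs with h
  · rw [h1, left_eq_add]
    refine sum_eq_zero fun Q hQ => ?_
    obtain ⟨hne, hQ⟩ := mem_erase.1 hQ
    obtain ⟨-, ⟨a1, a2⟩, a3⟩ := mem_filter.1 hQ
    exact absurd (h.eq_of_le a1 (a2.trans inf_le_left) a3) hne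
  · obtain ⟨S, hS⟩ := H8.exists_isSylowIn p N
    have h2 := card_conj_sylow hS fun _ => True
    rw [card_subtype_congr (q := fun g => g ∈ N) fun g => and_true _ |>.to_iff] at h2
    have h3 : ¬ H8.IsSylowIn p R N := fun h' => h (H8.isSylowIn_of_maximal hL hR
      fun Q a1 a2 a3 => by
        by_contra a4
        exact (H8.lt_inf_normalizer_of_lt a1 (lt_of_le_not_ge a3 a4)).ne'
          (h'.eq_of_le a1.to_inf_left (inf_le_inf_right _ a2) (le_inf a3 le_normalizer)))
    rw [← sum_filter, h2, Nat.cast_sum, sum_congr (s₂ := (erase (univ.filter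
      fun Q : Subgroup G => (IsPGroup p Q ∧ Q ≤ N) ∧ R ≤ Q) R).filter
      fun Q => H8.IsSylowIn p Q N) ?_ fun _ _ => rfl] at h1
    · exact right_eq_add.1 h1
    · ext Q
      simp only [mem_filter, mem_erase, mem_univ, true_and, and_true]
      refine ⟨fun hQ => ⟨⟨fun e => h3 (e ▸ hQ), ⟨hQ.isPGroup, hQ.le⟩, ?_⟩, hQ⟩, fun hQ => hQ.2⟩
      exact le_sup_right.trans (hQ.eq_of_le (hQ.isPGroup.to_sup_of_normal_right' hR
        (hQ.le.trans inf_le_right)) (sup_le hQ.le hRN) le_sup_left).le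

end

/-- Casolo's theorem -/
theorem card_subnormalizer [Finite G] [Fact p.Prime] {H : Subgroup G} (hH : IsPGroup p H)
    (P : Sylow p G) : Nat.card {g : G // (H.subgroupOf (H ⊔ zpowers g)).IsSubnormal} =
      Nat.card {g : G // H ≤ MulAut.conj g • (P : Subgroup G)} := by
  have := Fintype.ofFinite G
  have := Fintype.ofFinite (Subgroup G)
  have h1 := card_subnormalizer_eq_sum (p := p) ⊤ H
  have h2 := card_conj_sylow (H8.isSylowIn_top P) fun R => H ≤ R
  rw [sum_congr rfl fun R hR => sum_snWeight_eq R (mem_filter.1 hR).2.1.1 ⊤ le_top,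
    ← sum_filter, filter_filter, filter_congr (q := fun R => H8.IsSylowIn p R ⊤ ∧ H ≤ R)
      fun R _ => ⟨fun h => ⟨h.2, h.1.2⟩, fun h => ⟨⟨⟨h.1.isPGroup, le_top⟩, h.2⟩, h.1⟩⟩,
    ← Nat.cast_sum, ← h2, Nat.cast_inj] at h1
  simp only [mem_top, true_and] at h1
  rw [← h1]
  refine card_subtype_congr fun g => ?_
  simp only [isSubnormal_sup_zpowers_iff hH, InvP, le_top, true_and]

theorem card_conj_sylow_eq_mul [Finite G] [Fact p.Prime] (P : Sylow p G) (Q : Subgroup G → Prop) :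
    Nat.card {g : G // Q (MulAut.conj g • (P : Subgroup G))} =
      Nat.card {R : Sylow p G // Q R} * Nat.card (normalizer ((P : Subgroup G) : Set G)) := by
  refine card_eq_mul_of_fiber (fun g => ⟨g.1 • P, g.2⟩) ?_
  rintro ⟨R, hR⟩
  obtain ⟨h, rfl⟩ := MulAction.exists_smul_eq G P R
  have := card_conj_smul_eq ⊤ P (mem_top h)
  rw [top_inf_eq, normalizer_conj_smul, card_conj_smul] at this
  rw [← this]
  exact Nat.card_congr ⟨fun g => ⟨g.1.1, mem_top _, congrArg (fun R => (R.1 : Subgroup G)) g.2⟩,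
    fun g => ⟨⟨g.1, by rw [g.2.2]; exact hR⟩, Subtype.ext (Sylow.ext g.2.2)⟩,
    fun _ => rfl, fun _ => rfl⟩

theorem card_conj_eq_mul [Finite G] (H : Subgroup G) (Q : Subgroup G → Prop) :
    Nat.card {g : G // Q (MulAut.conj g • H)} =
      Nat.card {K : Subgroup G // Q K ∧ ∃ g : G, K = MulAut.conj g • H} *
        Nat.card (normalizer (H : Set G)) := by
  refine card_eq_mul_of_fiber (fun g => ⟨_, g.2, g.1, rfl⟩) ?_
  rintro ⟨R, hR, h, rfl⟩
  have := card_conj_smul_eq ⊤ H (mem_top h)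
  rw [top_inf_eq, normalizer_conj_smul, card_conj_smul] at this
  rw [← this]
  exact Nat.card_congr ⟨fun g => ⟨g.1.1, mem_top _, congrArg Subtype.val g.2⟩,
    fun g => ⟨⟨g.1, by rw [g.2.2]; exact hR⟩, Subtype.ext g.2.2⟩, fun _ => rfl, fun _ => rfl⟩

end Cfsg.Agent.H1
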