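import Cfsg.Agent.H42.VpDefs

set_option autoImplicit false

namespace Cfsg.Agent.H1.VpM

open Subgroup Cfsg Cfsg.Agent.H42.Vp

universe u

theorem exists_mul {G : Type u} [Group G] [Finite G] {p : ℕ} [Fact p.Prime] (K : Subgroup G)
    [K.Normal] (hi : ∃ k : ℕ, K.index = p ^ k) (P : Sylow p G) (g : G) :
    ∃ k ∈ K, ∃ v ∈ (P : Subgroup G), g = k * v := by
  obtain ⟨n, hn⟩ := hi
  have h1 : (K ⊔ (P : Subgroup G)).index ∣ p ^ n := hn ▸ index_dvd_of_le le_sup_left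
  have h2 : ¬ p ∣ (K ⊔ (P : Subgroup G)).index := fun h =>
    P.not_dvd_index (h.trans (index_dvd_of_le le_sup_right))
  have h3 : K ⊔ (P : Subgroup G) = ⊤ := index_eq_one.1
    ((((Nat.Prime.coprime_iff_not_dvd Fact.out).2 h2).symm.pow_right n).eq_one_of_dvd h1)
  have h4 : g ∈ ((K ⊔ (P : Subgroup G) : Subgroup G) : Set G) := by rw [h3]; trivial
  rw [normal_mul] at h4
  obtain ⟨k, hk, v, hv, e⟩ := h4
  exact ⟨k, hk, v, hv, e.symm⟩

theorem eq_one_of_pow {G : Type u} [Group G] [Finite G] {p : ℕ} (K : Subgroup G)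
    (hc : (Nat.card K).Coprime p) {k : G} (hk : k ∈ K) {m : ℕ} (h : k ^ p ^ m = 1) : k = 1 := by
  have h1 : orderOf k ∣ Nat.card K := K.orderOf_dvd_natCard hk
  have h2 : orderOf k ∣ p ^ m := orderOf_dvd_of_pow_eq_one h
  exact orderOf_eq_one_iff.1 (Nat.eq_one_of_dvd_coprimes (hc.pow_right m) h1 h2)

theorem eq_one_of_mem {G : Type u} [Group G] [Finite G] {p : ℕ} (K : Subgroup G)
    (hc : (Nat.card K).Coprime p) {P : Subgroup G} (hP : IsPGroup p P) {k : G} (hk : k ∈ K)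
    (h : k ∈ P) : k = 1 := by
  obtain ⟨j, hj⟩ := hP ⟨k, h⟩
  exact eq_one_of_pow K hc hk (congrArg Subtype.val hj)

theorem exists_sylow {G : Type u} [Group G] [Finite G] {p : ℕ} [hp : Fact p.Prime] {x : G} {m : ℕ}
    (hx : x ^ p ^ m = 1) : ∃ P : Sylow p G, x ∈ (P : Subgroup G) := by
  obtain ⟨j, -, hj⟩ := (Nat.dvd_prime_pow hp.out).1 (orderOf_dvd_of_pow_eq_one hx)
  have h : IsPGroup p (zpowers x) := IsPGroup.of_card (by rw [Nat.card_zpowers, hj])
  obtain ⟨P, hP⟩ := h.exists_le_sylow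
  exact ⟨P, hP (mem_zpowers x)⟩

theorem m (z : ZStmt.{u}) (i1 : I1Stmt.{u}) (i2 : I2Stmt.{u}) : MStmt.{u} := by
  intro G _ _ p hp K hK hc hi hvan x ⟨m, hx⟩ k hk hk1 hxk
  have : Fact p.Prime := ⟨hp⟩
  have nv : ¬ Van (x * k) := by
    intro hv
    obtain ⟨j, hj⟩ := hvan _ hv
    have h1 : (x * k) ^ p ^ (j + m) = 1 := by
      rw [pow_add, pow_mul, ← hj, pow_orderOf_eq_one, one_pow]
    rw [hxk.mul_pow, pow_add, mul_comm (p ^ j), pow_mul, hx, one_pow, one_mul, ← pow_add] at h1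
    exact hk1 (eq_one_of_pow K hc hk h1)
  have hq : IsPGroup p (G ⧸ K) := by
    obtain ⟨n, hn⟩ := hi
    exact IsPGroup.of_card (n := n) (by rw [← hn]; rfl)
  have hk' : (QuotientGroup.mk' K) k = 1 := (QuotientGroup.eq_one_iff k).2 hk
  have hcen : (QuotientGroup.mk' K) x ∈ center (G ⧸ K) := by
    by_contra hn
    refine nv (H22.VanP.Van.comp (QuotientGroup.mk' K) (QuotientGroup.mk'_surjective K) ?_)
    rw [map_mul, hk', mul_one]
    exact z _ p hp hq _ hn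
  have hcomm : ∀ g : G, g * x * g⁻¹ * x⁻¹ ∈ K := fun g => by
    have h := mem_center_iff.1 hcen (QuotientGroup.mk' K g)
    rw [← QuotientGroup.ker_mk' K, MonoidHom.mem_ker, map_mul, map_mul, map_mul, h, map_inv,
      map_inv]
    group
  have hin : ∀ θ : K → ℂ, IsIrrCharacter K θ → x ∈ H14.inertia K θ := by
    intro θ hθ
    by_contra hn
    refine nv (H22.VanP.van_of_inertia K hθ fun g hg => hn ?_)
    have hle := H14.le_inertia K (H11.isClassFunction_of_irr hθ)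
    have e : x = (g * x * g⁻¹ * x⁻¹)⁻¹ * (g * (x * k) * g⁻¹) * (g * k * g⁻¹)⁻¹ := by group
    rw [e]
    exact mul_mem (mul_mem (inv_mem (hle (hcomm g))) hg) (inv_mem (hle (hK.conj_mem k hk g)))
  have hC := i2 G p hp K x hc ⟨m, hx⟩ (i1 G K x hin)
  obtain ⟨P, hP⟩ := exists_sylow hx
  refine mem_center_iff.2 fun g => ?_
  obtain ⟨k', hk', v, hv, rfl⟩ := exists_mul K hi P g
  have h1 : v * x * v⁻¹ * x⁻¹ = 1 := eq_one_of_mem K hc P.isPGroup' (hcomm v)
    (mul_mem (mul_mem (mul_mem hv hP) (inv_mem hv)) (inv_mem hP))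
  rw [mul_inv_eq_one, mul_inv_eq_iff_eq_mul] at h1
  have h2 : k' * x = x * k' := mem_centralizer_iff.1 hC k' hk'
  rw [mul_assoc, h1, ← mul_assoc, h2, mul_assoc]

end Cfsg.Agent.H1.VpM
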